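import Cfsg.Prelude.Def_GeometricClasses
import Cfsg.Prelude.Def_CaseTheorems
import Mathlib.LinearAlgebra.Matrix.Permutation
import Mathlib.FieldTheory.IsAlgClosed.Basic

/-!
# Branch R5: subgroups of `PGL₄` of sectional 2-rank at least five, definitions

`G ≤ GL₄(K)` contains the scalars, `G / scalars` is finite, simple and non-abelian.
-/

set_option autoImplicit false

namespace Cfsg.Lib.Q4R

open scoped MatrixGroups Matrix
open Cfsg.Geo Equiv

variable {K : Type*} [Field K]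

section Gen

variable {ι : Type} [Fintype ι] [DecidableEq ι]

/-- Diagonal matrices. -/
def dg : (ι → Kˣ) →* GL ι K :=
  (Units.map (Matrix.diagonalRingHom ι K).toMonoidHom).comp MulEquiv.piUnits.symm.toMonoidHom

/-- Permutation matrices: `pm σ` sends the basis vector `e j` to `e (σ j)`. -/
def pm : Perm ι →* GL ι K := (Matrix.permMatrixHom (n := ι) (R := K)).toHomUnits

/-- Scalars. -/
def sc : Kˣ →* GL ι K := dg.comp (Pi.constMonoidHom ι Kˣ)

theorem dg_val (a : ι → Kˣ) : (dg a : GL ι K).1 = Matrix.diagonal fun i => (a i : K) := rfl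

theorem pm_apply (σ : Perm ι) (i j : ι) : (pm σ : GL ι K).1 i j = if i = σ j then 1 else 0 := by
  change (σ⁻¹.permMatrix K) i j = _
  simp only [Equiv.Perm.permMatrix, PEquiv.toMatrix_apply, Equiv.toPEquiv_apply, Option.mem_def,
    Option.some.injEq, Perm.inv_eq_iff_eq]

theorem mon_apply (a : ι → Kˣ) (σ : Perm ι) (i j : ι) :
    (dg a * pm σ : GL ι K).1 i j = if i = σ j then (a i : K) else 0 := by
  rw [Units.val_mul, dg_val, Matrix.diagonal_mul, pm_apply]; split_ifs <;> simp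

theorem sc_eq (c : Kˣ) : (sc c : GL ι K) = dg fun _ => c := rfl

theorem sc_val (c : Kˣ) : (sc c : GL ι K).1 = (c : K) • (1 : Matrix ι ι K) := by
  rw [sc_eq, dg_val, Matrix.smul_one_eq_diagonal]

theorem mem_scal {g : GL ι K} : g ∈ scalars ι K ↔ ∃ c : Kˣ, g = sc c := by
  rw [mem_scalars_iff]
  exact exists_congr fun c => by rw [Units.ext_iff, sc_val]

theorem sc_mem (c : Kˣ) : (sc c : GL ι K) ∈ scalars ι K := mem_scal.2 ⟨c, rfl⟩

theorem sc_comm (c : Kˣ) (g : GL ι K) : sc c * g = g * sc c :=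
  Units.ext (by simp [sc_val])

theorem scal_conj {z : GL ι K} (hz : z ∈ scalars ι K) (g : GL ι K) : g * z * g⁻¹ = z := by
  obtain ⟨c, rfl⟩ := mem_scal.1 hz
  rw [← sc_comm, mul_inv_cancel_right]

theorem pm_dg (σ : Perm ι) (a : ι → Kˣ) :
    (pm σ * dg a : GL ι K) = dg (fun i => a (σ⁻¹ i)) * pm σ := by
  refine Units.ext (Matrix.ext fun i j => ?_)
  rw [mon_apply, Units.val_mul, dg_val, Matrix.mul_diagonal, pm_apply]
  split_ifs with h
  · simp [h]
  · simp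

theorem pm_dg_conj (σ : Perm ι) (a : ι → Kˣ) :
    (pm σ * dg a * (pm σ)⁻¹ : GL ι K) = dg fun i => a (σ⁻¹ i) := by
  rw [pm_dg, mul_inv_cancel_right]

theorem mon_mul (a b : ι → Kˣ) (σ τ : Perm ι) :
    (dg a * pm σ * (dg b * pm τ) : GL ι K) = dg (a * fun i => b (σ⁻¹ i)) * pm (σ * τ) := by
  rw [map_mul, map_mul, mul_assoc, ← mul_assoc (pm σ), pm_dg]; simp only [mul_assoc]

theorem mon_inv (a : ι → Kˣ) (σ : Perm ι) :
    ((dg a * pm σ)⁻¹ : GL ι K) = dg (fun i => (a (σ i))⁻¹) * pm σ⁻¹ := by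
  rw [mul_inv_rev, ← map_inv, ← map_inv, pm_dg]; rfl

theorem mon_inj {a b : ι → Kˣ} {σ τ : Perm ι} (h : (dg a * pm σ : GL ι K) = dg b * pm τ) :
    a = b ∧ σ = τ := by
  have k : ∀ j, σ j = τ j ∧ a (σ j) = b (σ j) := fun j => by
    have := congrArg (fun g : GL ι K => g.1 (σ j) j) h
    simp only [mon_apply, if_true] at this
    split_ifs at this with e
    · exact ⟨e, Units.ext this⟩
    · exact absurd this (Units.ne_zero _)
  exact ⟨funext fun i => by simpa using (k (σ⁻¹ i)).2, Equiv.ext fun j => (k j).1⟩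

theorem dg_inj : Function.Injective (dg : (ι → Kˣ) → GL ι K) := fun a b h =>
  (mon_inj (σ := 1) (τ := 1) (by rw [h])).1

theorem mon_det (a : ι → Kˣ) (σ : Perm ι) :
    (dg a * pm σ : GL ι K).1.det = (∏ i, (a i : K)) * ((Perm.sign σ : ℤˣ) : ℤ) := by
  rw [Units.val_mul, Matrix.det_mul, dg_val, Matrix.det_diagonal]
  congr 1
  change (σ⁻¹.permMatrix K).det = _
  rw [Matrix.det_permutation, Perm.sign_inv]

theorem mon_trace (a : ι → Kˣ) (σ : Perm ι) :
    (dg a * pm σ : GL ι K).1.trace = ∑ i, if i = σ i then (a i : K) else 0 := by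
  simp only [Matrix.trace, Matrix.diag, mon_apply]

/-- The monomial group. -/
def NN (ι : Type) [Fintype ι] [DecidableEq ι] (K : Type*) [Field K] : Subgroup (GL ι K) where
  carrier := {g | ∃ a σ, g = dg a * pm σ}
  one_mem' := ⟨1, 1, by simp⟩
  mul_mem' := by
    rintro _ _ ⟨a, σ, rfl⟩ ⟨b, τ, rfl⟩
    exact ⟨_, _, mon_mul a b σ τ⟩
  inv_mem' := by
    rintro _ ⟨a, σ, rfl⟩
    exact ⟨_, _, mon_inv a σ⟩

theorem mem_NN {g : GL ι K} : g ∈ NN ι K ↔ ∃ a σ, g = dg a * pm σ := Iff.rfl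

theorem mon_mem (a : ι → Kˣ) (σ : Perm ι) : dg a * pm σ ∈ NN ι K := ⟨a, σ, rfl⟩

theorem dg_mem (a : ι → Kˣ) : dg a ∈ NN ι K := ⟨a, 1, by simp⟩

theorem pm_mem (σ : Perm ι) : pm σ ∈ NN ι K := ⟨1, σ, by simp⟩

open Classical in
/-- The permutation part of a monomial matrix. -/
noncomputable def pp (g : GL ι K) : Perm ι := if h : g ∈ NN ι K then h.choose_spec.choose else 1

theorem pp_mon (a : ι → Kˣ) (σ : Perm ι) : pp (dg a * pm σ : GL ι K) = σ := by
  rw [pp, dif_pos (mon_mem a σ)]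
  exact (mon_inj (mon_mem a σ).choose_spec.choose_spec).2.symm

theorem ex_pp {g : GL ι K} (h : g ∈ NN ι K) : ∃ a, g = dg a * pm (pp g) := by
  obtain ⟨a, σ, rfl⟩ := h
  exact ⟨a, by rw [pp_mon]⟩

theorem pp_dg (a : ι → Kˣ) : pp (dg a : GL ι K) = 1 := by simpa using pp_mon a 1

theorem pp_pm (σ : Perm ι) : pp (pm σ : GL ι K) = σ := by simpa using pp_mon (K := K) 1 σ

theorem pp_mul {x y : GL ι K} (hx : x ∈ NN ι K) (hy : y ∈ NN ι K) : pp (x * y) = pp x * pp y := by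
  obtain ⟨a, σ, rfl⟩ := hx
  obtain ⟨b, τ, rfl⟩ := hy
  rw [mon_mul, pp_mon, pp_mon, pp_mon]

theorem pp_inv {x : GL ι K} (hx : x ∈ NN ι K) : pp x⁻¹ = (pp x)⁻¹ := by
  obtain ⟨a, σ, rfl⟩ := hx
  rw [mon_inv, pp_mon, pp_mon]

theorem pp_pow {x : GL ι K} (hx : x ∈ NN ι K) (n : ℕ) : pp (x ^ n) = pp x ^ n := by
  induction n with
  | zero => simpa using pp_dg (K := K) (1 : ι → Kˣ)
  | succ n ih => rw [pow_succ, pp_mul (pow_mem hx n) hx, ih, pow_succ]

theorem dg_of_pp {g : GL ι K} (h : g ∈ NN ι K) (h1 : pp g = 1) : ∃ a, g = dg a := by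
  obtain ⟨a, e⟩ := ex_pp h
  exact ⟨a, by rw [e, h1, map_one, mul_one]⟩

theorem pp_scal {g : GL ι K} (h : g ∈ scalars ι K) : pp g = 1 := by
  obtain ⟨c, rfl⟩ := mem_scal.1 h
  exact pp_dg _

theorem scal_le_NN : scalars ι K ≤ NN ι K := fun g h => by
  obtain ⟨c, rfl⟩ := mem_scal.1 h
  exact dg_mem _

/-- `G` modulo its scalars. -/
abbrev Sq (G : Subgroup (GL ι K)) : Type _ := G ⧸ (scalars ι K).subgroupOf G

/-- A 2-group modulo scalars. -/
def Two (U : Subgroup (GL ι K)) : Prop := ∀ g ∈ U, ∃ n : ℕ, g ^ 2 ^ n ∈ scalars ι K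

/-- `x` and `z` commute modulo scalars. -/
def Cm (x z : GL ι K) : Prop := x * z * x⁻¹ * z⁻¹ ∈ scalars ι K

/-- The standing hypotheses. -/
structure Env (G : Subgroup (GL ι K)) : Prop where
  scal : scalars ι K ≤ G
  fin : Finite (Sq G)
  simple : IsSimpleGroup (Sq G)
  nonab : ¬ IsMulCommutative (Sq G)

/-- A Sylow 2-subgroup modulo scalars. -/
structure Syl (G T : Subgroup (GL ι K)) : Prop where
  scal : scalars ι K ≤ T
  le : T ≤ G
  two : Two T
  max : ∀ U ≤ G, Two U → T ≤ U → U ≤ T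

/-- `G` contains a transvection. -/
def HasTv (G : Subgroup (GL ι K)) : Prop :=
  ∃ g ∈ G, ∃ v φ : ι → K, v ≠ 0 ∧ φ ≠ 0 ∧ φ ⬝ᵥ v = 0 ∧ g.1 = 1 + Matrix.vecMulVec v φ

/-- The conjugate `k G k⁻¹`. -/
def cj (k : GL ι K) (G : Subgroup (GL ι K)) : Subgroup (GL ι K) :=
  G.comap (MulAut.conj k⁻¹).toMonoidHom

theorem mem_cj {k g : GL ι K} {G : Subgroup (GL ι K)} : g ∈ cj k G ↔ k⁻¹ * g * k ∈ G := by
  simp [cj]

theorem cj_mem {g : GL ι K} {G : Subgroup (GL ι K)} (k : GL ι K) (h : g ∈ G) :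
    k * g * k⁻¹ ∈ cj k G := by
  rw [mem_cj]; simpa [mul_assoc] using h

theorem cj_cj (k l : GL ι K) (G : Subgroup (GL ι K)) : cj k (cj l G) = cj (k * l) G :=
  Subgroup.ext fun g => by simp [mem_cj, mul_assoc]

theorem cj_one (G : Subgroup (GL ι K)) : cj 1 G = G := Subgroup.ext fun g => by simp [mem_cj]

theorem cj_mono (k : GL ι K) {G H : Subgroup (GL ι K)} (h : G ≤ H) : cj k G ≤ cj k H :=
  Subgroup.comap_mono h

theorem cj_scal (k : GL ι K) : cj k (scalars ι K) = scalars ι K := Subgroup.ext fun g => by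
  rw [mem_cj]
  refine ⟨fun h => ?_, fun h => by simpa using (scal_conj h k⁻¹).symm ▸ h⟩
  have := scal_conj h k
  rw [show k * (k⁻¹ * g * k) * k⁻¹ = g by group] at this
  exact this ▸ h

theorem cj_self {G : Subgroup (GL ι K)} {k : GL ι K} (h : k ∈ G) : cj k G = G :=
  Subgroup.ext fun g => by
    rw [mem_cj, Subgroup.mul_mem_cancel_right _ h, Subgroup.mul_mem_cancel_left _ (inv_mem h)]

theorem Two.mono {U W : Subgroup (GL ι K)} (h : Two W) (l : U ≤ W) : Two U :=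
  fun g hg => h g (l hg)

theorem Two.cj {U : Subgroup (GL ι K)} (h : Two U) (k : GL ι K) : Two (cj k U) := fun g hg => by
  obtain ⟨n, hn⟩ := h _ (mem_cj.1 hg)
  refine ⟨n, ?_⟩
  rw [← cj_scal k, mem_cj]
  have := conj_pow (a := k⁻¹) (b := g) (i := 2 ^ n)
  rw [inv_inv] at this
  rwa [← this]

theorem Syl.cj {G T : Subgroup (GL ι K)} (h : Syl G T) (k : GL ι K) : Syl (cj k G) (cj k T) where
  scal := cj_scal k ▸ cj_mono k h.scal
  le := cj_mono k h.le
  two := h.two.cj k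
  max U h1 h2 h3 := by
    have e : ∀ X : Subgroup (GL ι K), Q4R.cj k⁻¹ (Q4R.cj k X) = X := fun X => by
      rw [cj_cj, inv_mul_cancel, cj_one]
    have := h.max (Q4R.cj k⁻¹ U) (e G ▸ cj_mono _ h1) (h2.cj _) (e T ▸ cj_mono _ h3)
    have := cj_mono k this
    rwa [cj_cj, mul_inv_cancel, cj_one] at this

theorem HasTv.of_cj {G : Subgroup (GL ι K)} {k : GL ι K} (h : HasTv (cj k G)) : HasTv G := by
  obtain ⟨g, hg, v, φ, hv, hφ, h0, e⟩ := h
  refine ⟨_, mem_cj.1 hg, (k⁻¹).1 *ᵥ v, φ ᵥ* k.1, fun h => hv ?_, fun h => hφ ?_, ?_, ?_⟩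
  · have := congrArg (k.1 *ᵥ ·) h
    simpa [Matrix.mulVec_mulVec] using this
  · have := congrArg (· ᵥ* (k⁻¹).1) h
    simpa [Matrix.vecMul_vecMul] using this
  · rw [← Matrix.dotProduct_mulVec, Matrix.mulVec_mulVec]; simpa using h0
  · simp only [Units.val_mul, e, mul_add, add_mul, mul_one, Units.inv_mul, Matrix.mul_vecMulVec,
      Matrix.vecMulVec_mul]

/-- The reflection in the `i`-th basis vector. -/
def rr (i : ι) : GL ι K := dg (Pi.mulSingle i (-1))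

/-- The reflection interchanging the lines `i` and `j`. -/
def sw (i j : ι) (a : Kˣ) : GL ι K := dg (Pi.mulSingle i a * Pi.mulSingle j a⁻¹) * pm (swap i j)

theorem sw_one (i j : ι) : (sw i j 1 : GL ι K) = pm (swap i j) := by simp [sw]

theorem sw_mem (i j : ι) (a : Kˣ) : sw i j a ∈ NN ι K := mon_mem _ _

theorem pp_sw (i j : ι) (a : Kˣ) : pp (sw i j a : GL ι K) = swap i j := pp_mon _ _

variable [IsAlgClosed K]

/-- A square root of `-1`. -/
noncomputable def ii (K : Type*) [Field K] [IsAlgClosed K] : Kˣ :=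
  Units.mk0 (IsAlgClosed.exists_eq_mul_self (-1 : K)).choose fun h => by
    have := (IsAlgClosed.exists_eq_mul_self (-1 : K)).choose_spec
    rw [h] at this
    simp at this

theorem ii_sq : ii K * ii K = -1 :=
  Units.ext (IsAlgClosed.exists_eq_mul_self (-1 : K)).choose_spec.symm

theorem ii_val : (ii K : K) * ii K = -1 := by simpa using congrArg Units.val (ii_sq (K := K))

/-- `diag(i, i, 1, 1)`. -/
noncomputable def hh (i j : ι) : GL ι K := dg (Pi.mulSingle i (ii K) * Pi.mulSingle j (ii K))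

/-- `x = α + β x²` with `α = (1 + i) / 2`, `β = (1 - i) / 2`: the eigenvalues are `1`, `i`. -/
def Hq (x : GL ι K) : Prop :=
  (2 : K) • x.1 = (1 + ii K : K) • (1 : Matrix ι ι K) + (1 - ii K : K) • (x * x).1

end Gen

/-- `GL₄(K)`. -/
abbrev G4 (K : Type*) [Field K] : Type _ := GL (Fin 4) K

/-- The dihedral group of order eight preserving `{0, 1 | 2, 3}`. -/
def D8 : Subgroup (Perm (Fin 4)) where
  carrier := {σ | σ * (swap 0 1 * swap 2 3) = swap 0 1 * swap 2 3 * σ}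
  one_mem' := by simp
  mul_mem' := fun {a b} ha hb => Commute.mul_left (a := a) ha hb
  inv_mem' := fun {a} ha => Commute.inv_left (a := a) ha

theorem mem_D8 {σ : Perm (Fin 4)} :
    σ ∈ D8 ↔ σ * (swap 0 1 * swap 2 3) = swap 0 1 * swap 2 3 * σ := Iff.rfl

/-- `μ₄ ≀ H`. -/
def Gam (K : Type*) [Field K] (H : Subgroup (Perm (Fin 4))) : Subgroup (G4 K) where
  carrier := {g | ∃ a σ, (∀ i, a i ^ 4 = 1) ∧ σ ∈ H ∧ g = dg a * pm σ}
  one_mem' := ⟨1, 1, by simp, one_mem _, by simp⟩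
  mul_mem' := by
    rintro _ _ ⟨a, σ, h1, h2, rfl⟩ ⟨b, τ, h3, h4, rfl⟩
    exact ⟨_, _, fun i => by simp [mul_pow, h1, h3], mul_mem h2 h4, mon_mul a b σ τ⟩
  inv_mem' := by
    rintro _ ⟨a, σ, h1, h2, rfl⟩
    exact ⟨_, _, fun i => by simp [h1], inv_mem h2, mon_inv a σ⟩

variable [IsAlgClosed K]

/-- Stage `β`. -/
structure Beta (G T : Subgroup (G4 K)) : Prop where
  syl : Syl G T
  mon : T ≤ NN (Fin 4) K
  r : ∀ i, rr i ∈ T
  h : hh 0 1 ∈ T
  p01 : pm (swap 0 1) ∈ T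
  p23 : pm (swap 2 3) ∈ T

/-- Stage `γ`: `G` contains the reflection group `G(4, 2, 4)`. -/
structure Gamma (G : Subgroup (G4 K)) : Prop where
  r : ∀ i, rr i ∈ G
  h : hh 0 1 ∈ G
  p : ∀ σ, pm σ ∈ G

end Cfsg.Lib.Q4R
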