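import Cfsg.Agent.Lib.Q4R.Mat

/-!
# Branch R5: monomial 2-groups with an elementary abelian quotient of order at least 32
-/

set_option autoImplicit false

namespace Cfsg.Lib.Q4R

open scoped MatrixGroups Matrix
open Cfsg.Geo Equiv

variable {K : Type*} [Field K]

set_option synthInstance.maxSize 2000 in
set_option synthInstance.maxHeartbeats 200000 in
private theorem dec : ∀ σ : Perm (Fin 4), σ ^ 4 = 1 → ∀ τ : Perm (Fin 4), τ ^ 4 = 1 →
    (σ * τ) ^ 4 = 1 → (∀ ρ : Perm (Fin 4), ρ ^ 4 = 1 → (σ * ρ) ^ 4 = 1 → (τ * ρ) ^ 4 = 1 →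
      ∃ x ∈ [σ, τ, σ⁻¹ * τ, ρ, σ⁻¹ * ρ, τ⁻¹ * ρ, (σ * τ)⁻¹ * ρ],
        ∃ y ∈ [1, σ, τ, ρ, σ * τ, σ * ρ, τ * ρ], x = y * y) ∧
    ((∃ x ∈ [σ, τ, σ⁻¹ * τ], ∃ y ∈ [1, σ, τ, σ * τ], x = y * y) ∨
      (∀ ρ : Perm (Fin 4), ρ * ρ = 1 → Perm.sign ρ = 1 → ρ ∈ [1, σ, τ, σ * τ]) ∨
      ∃ π : Perm (Fin 4), swap (π 0) (π 1) ∈ [1, σ, τ, σ * τ] ∧
        ∃ x ∈ [1, σ, τ, σ * τ], ∃ y ∈ [1, σ, τ, σ * τ], swap (π 2) (π 3) = x * (y * y)) := by
  decide +kernel

private theorem pow12 : ∀ σ : Perm (Fin 4), σ ^ (3 * 4) = 1 := by decide +kernel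

/-- A 2-subgroup `H` of `S₄` with a subgroup `L` of index `≥ 3` containing all squares.
Then `L` is normal, `H / L` is elementary abelian, and there are `σ, τ ∈ H` with `σ, τ, σ τ ∉ L`; so
none of `σ, τ, σ τ` is `1` or a square of one of `σ, τ, σ τ`, and a `decide` over pairs `(σ, τ)` with
`σ⁴ = τ⁴ = (σ τ)⁴ = (σ τ⁻¹)⁴ = 1` gives the alternative.  The index is at most `4`: `|H| ∣ 8`, and
if `|H| = 8` and `L = 1` then `H` would be elementary abelian of order `8`, but among the ten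
elements with `σ² = 1` at most four commute pairwise. -/
theorem perm_aux {H L : Subgroup (Perm (Fin 4))} (h4 : ∀ σ ∈ H, σ ^ 4 = 1)
    (sq : ∀ σ ∈ H, σ * σ ∈ L) : L.relIndex H ≤ 4 ∧ (2 < L.relIndex H →
      (∀ τ : Perm (Fin 4), τ * τ = 1 → Perm.sign τ = 1 → τ ∈ H) ∨
      ∃ σ : Perm (Fin 4), swap (σ 0) (σ 1) ∈ H ∧ swap (σ 2) (σ 3) ∈ H) := by
  have ex : ∀ l : List (Perm (Fin 4)), (∀ y ∈ l, y ∈ H) → l.length < L.relIndex H →
      ∃ x ∈ H, ∀ y ∈ l, y⁻¹ * x ∉ L := fun l hl h => by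
    classical
    by_contra hc
    push Not at hc
    have := Fintype.ofFinite (H ⧸ L.subgroupOf H)
    refine h.not_ge ?_
    rw [Subgroup.relIndex, Subgroup.index, Nat.card_eq_fintype_card, ← List.length_attach,
      ← List.length_map (fun y : {y // y ∈ l} => ((⟨y.1, hl _ y.2⟩ : H) : H ⧸ L.subgroupOf H))]
    refine (Finset.card_le_card fun q _ => ?_).trans (List.toFinset_card_le _)
    obtain ⟨x, rfl⟩ := QuotientGroup.mk_surjective q
    obtain ⟨y, h1, h2⟩ := hc x x.2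
    exact List.mem_toFinset.2 (List.mem_map.2 ⟨⟨y, h1⟩, List.mem_attach _ _, QuotientGroup.eq.2 h2⟩)
  by_cases h : 2 < L.relIndex H
  swap
  · exact ⟨by omega, fun h' => absurd h' h⟩
  obtain ⟨σ, s1, s2⟩ := ex [1] (by simp) (by simp; omega)
  obtain ⟨τ, t1, t2⟩ := ex [1, σ] (by simp [s1]) h
  simp only [List.mem_cons, List.not_mem_nil, or_false, forall_eq_or_imp, forall_eq, inv_one,
    one_mul] at s2 t2
  have m : ∀ y ∈ [1, σ, τ, σ * τ], y ∈ H := by simp [s1, t1, mul_mem]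
  obtain ⟨k1, k2⟩ := dec σ (h4 _ s1) τ (h4 _ t1) (h4 _ (mul_mem s1 t1))
  refine ⟨not_lt.1 fun h5 => ?_, fun _ => ?_⟩
  · obtain ⟨ρ, r1, r2⟩ := ex _ m h5
    obtain ⟨x, x1, y, y1, e⟩ := k1 ρ (h4 _ r1) (h4 _ (mul_mem s1 r1)) (h4 _ (mul_mem t1 r1))
    have : x ∈ L := e ▸ sq y (by revert y; simp [s1, t1, r1, mul_mem])
    clear e
    revert x
    simp only [List.mem_cons, List.not_mem_nil, or_false, forall_eq_or_imp, forall_eq, inv_one,
      one_mul] at r2 ⊢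
    tauto
  · rcases k2 with ⟨x, x1, y, y1, e⟩ | k | ⟨π, k, x, x1, y, y1, e⟩
    · have : x ∈ L := e ▸ sq y (m y y1)
      clear e
      revert x
      simp only [List.mem_cons, List.not_mem_nil, or_false, forall_eq_or_imp, forall_eq]
      tauto
    · exact .inl fun ρ a b => m _ (k ρ a b)
    · exact .inr ⟨π, m _ k, e ▸ mul_mem (m x x1) (mul_mem (m y y1) (m y y1))⟩

/-- A finite subgroup `B` of `{a : Fin 4 → Kˣ | a 0 = 1}` and a subgroup `C` containing the squares.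
The squaring map of `B` has kernel inside the eight sign vectors with `a 0 = 1`, and
`|B : B²| = |ker|`.  So the index of `C` is at most `8`; if it exceeds `4` it is `8` (it divides
`|ker|`, which divides `8`), the kernel is everything and `C ⊓ B = B²`. -/
theorem tor_aux [NeZero (2 : K)] {B C : Subgroup (Fin 4 → Kˣ)} [Finite B] (h0 : ∀ a ∈ B, a 0 = 1)
    (sq : ∀ a ∈ B, a * a ∈ C) : C.relIndex B ≤ 8 ∧ (4 < C.relIndex B →
      (∀ a : Fin 4 → Kˣ, a 0 = 1 → a * a = 1 → a ∈ B) ∧ ∀ a ∈ B, a ∈ C → ∃ b ∈ B, a = b * b) := by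
  let S : Subgroup (Fin 4 → Kˣ) := (powMonoidHom 2).ker ⊓ (Pi.evalMonoidHom _ 0).ker
  have mS : ∀ a, a ∈ S ↔ a * a = 1 ∧ a 0 = 1 := fun a => by simp [S, pow_two]
  have inj : Function.Injective fun (a : S) (i : Fin 3) => a.1 i.succ = 1 := fun a b e => by
    refine Subtype.ext (funext fun i => Fin.cases ?_ (fun j => ?_) i)
    · rw [((mS _).1 a.2).2, ((mS _).1 b.2).2]
    · have k : ∀ c : S, c.1 j.succ = 1 ∨ c.1 j.succ = -1 := fun c =>
        (mul_self_eq_one_iff.1 (congrArg Units.val (congrFun ((mS _).1 c.2).1 j.succ))).imp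
          Units.ext Units.ext
      have e1 : a.1 j.succ = 1 ↔ b.1 j.succ = 1 := (congrFun e j).to_iff
      by_cases h : a.1 j.succ = 1
      · rw [h, e1.1 h]
      · rw [(k a).resolve_left h, (k b).resolve_left (mt e1.2 h)]
  have := Finite.of_injective _ inj
  have cS : Nat.card S ≤ 8 := by simpa using Nat.card_le_card_of_injective _ inj
  let f : B →* B := powMonoidHom 2
  have le : f.range ≤ C.subgroupOf B := by
    rintro _ ⟨a, rfl⟩
    change (a : Fin 4 → Kˣ) ^ 2 ∈ C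
    exact pow_two (a : Fin 4 → Kˣ) ▸ sq a a.2
  have kS : f.ker.map B.subtype ≤ S := by
    rintro _ ⟨a, ha, rfl⟩
    exact (mS _).2 ⟨(pow_two _).symm.trans (congrArg Subtype.val ha), h0 _ a.2⟩
  have c1 : f.range.index = Nat.card (f.ker.map B.subtype) := by
    have h1 := f.range.card_mul_index
    rw [← f.ker.card_mul_index, Subgroup.index_ker, mul_comm] at h1
    rw [Subgroup.card_subtype]
    exact Nat.eq_of_mul_eq_mul_right Nat.card_pos h1
  have c2 := Subgroup.relIndex_mul_index le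
  have c3 := Subgroup.card_dvd_of_le kS
  have c4 := Nat.le_of_dvd Nat.card_pos c3
  have c5 : 0 < f.range.relIndex (C.subgroupOf B) :=
    Nat.pos_of_ne_zero Subgroup.index_ne_zero_of_finite
  change (C.subgroupOf B).index ≤ 8 ∧ (4 < (C.subgroupOf B).index → _)
  refine ⟨by nlinarith, fun h => ⟨fun a a0 a1 => ?_, fun a a0 a1 => ?_⟩⟩
  · obtain ⟨k, hk⟩ := c3
    have : k = 1 := by
      have : 0 < Nat.card S := Nat.card_pos
      rcases k with _ | _ | k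
      · omega
      · rfl
      · nlinarith
    rw [this, mul_one] at hk
    exact Subgroup.map_subtype_le _
      (Subgroup.eq_of_le_of_card_ge kS hk.le ▸ (mS a).2 ⟨a1, a0⟩ : a ∈ f.ker.map B.subtype)
  · obtain ⟨b, hb⟩ := Subgroup.relIndex_eq_one.1
      (by nlinarith : f.range.relIndex (C.subgroupOf B) = 1) (show ⟨a, a0⟩ ∈ C.subgroupOf B from a1)
    exact ⟨b, b.2, (congrArg Subtype.val hb).symm.trans (pow_two _)⟩

/-- Put `B = {a | a 0 = 1, dg a ∈ X}` (finite: it injects into `Sq X`), `C = {a | dg a ∈ Y}`,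
`H = pp X`, `L = pp Y` (images under the homomorphism `pp` on `NN`), `D = dg.range`.  Then
`|X : Y| = |X : Y (X ⊓ D)| · |Y (X ⊓ D) : Y| = |H : L| · |B : B ⊓ C|`, with factors `≤ 4` and `≤ 8`; a
product `> 16` forces `|H : L| > 2` and `|B : B ⊓ C| > 4`.  (`rr 0 = sc (-1) * dg (1, -1, -1, -1)`.) -/
theorem count [NeZero (2 : K)] {X Y : Subgroup (G4 K)} (f : Finite (Sq X)) (t : Two X)
    (m : X ≤ NN (Fin 4) K) (l : Y ≤ X) (s : scalars (Fin 4) K ≤ Y) (sq : ∀ x ∈ X, x * x ∈ Y)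
    (h : 16 < Y.relIndex X) :
    (∀ i, rr i ∈ X) ∧ (∀ a, dg a ∈ Y → ∃ b c, dg b ∈ X ∧ (dg a : G4 K) = sc c * (dg b * dg b)) ∧
      ((∀ τ : Perm (Fin 4), τ * τ = 1 → Perm.sign τ = 1 → ∃ x ∈ X, pp x = τ) ∨
        ∃ σ : Perm (Fin 4), (∃ x ∈ X, pp x = swap (σ 0) (σ 1)) ∧
          ∃ x ∈ X, pp x = swap (σ 2) (σ 3)) := by
  let φ : X →* Perm (Fin 4) := MonoidHom.mk' (fun x => pp x.1) fun x y => pp_mul (m x.2) (m y.2)
  let B : Subgroup (Fin 4 → Kˣ) := X.comap dg ⊓ (Pi.evalMonoidHom _ 0).ker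
  let ψ : B →* X := (dg.comp B.subtype).codRestrict X fun a => a.2.1
  let Y' := Y.subgroupOf X
  have nr : Y'.Normal := ⟨fun y hy x => by
    have : (x * y * x⁻¹ : X) = x * y * (x * y) * y⁻¹ * (x⁻¹ * x⁻¹) := by group
    rw [this]
    exact mul_mem (mul_mem (sq _ (x * y).2) (inv_mem hy)) (sq _ x⁻¹.2)⟩
  have sp : ∀ a : Fin 4 → Kˣ, (dg a : G4 K) = sc (a 0) * dg fun i => (a 0)⁻¹ * a i := fun a => by
    rw [sc_eq, ← map_mul]; congr 1; ext i; simp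
  have mB : ∀ a : Fin 4 → Kˣ, dg a ∈ X → (fun i => (a 0)⁻¹ * a i) ∈ B := fun a ha =>
    ⟨(X.mul_mem_cancel_left (l (s (sc_mem _)))).1 (sp a ▸ ha), inv_mul_cancel _⟩
  have fB : Finite B := Finite.of_injective (fun a => (ψ a : Sq X)) fun a b e => by
    obtain ⟨c, hc⟩ := mem_scal.1 (Subgroup.mem_subgroupOf.1 (QuotientGroup.eq.1 e))
    have h1 : (a⁻¹ * b : B).1 = fun _ => c := dg_inj (by rw [← sc_eq, ← hc, ← map_inv, ← map_mul]; rfl)
    have h2 : c = 1 := (congrFun h1 0).symm.trans (a⁻¹ * b).2.2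
    exact inv_mul_eq_one.1 (Subtype.ext (h1.trans (h2 ▸ rfl)))
  have e1 : ψ.range ⊔ Y' = Y' ⊔ φ.ker := by
    refine le_antisymm (sup_le (le_sup_of_le_right ?_) le_sup_left) (sup_le le_sup_right ?_)
    · rintro _ ⟨a, rfl⟩
      exact pp_dg _
    · rintro ⟨x, hx⟩ h1
      obtain ⟨a, rfl⟩ := dg_of_pp (m hx) h1
      have : (⟨dg a, hx⟩ : X) = ⟨_, l (s (sc_mem (a 0)))⟩ * ψ ⟨_, mB a hx⟩ := Subtype.ext (sp a)
      rw [this]
      exact mul_mem (Subgroup.mem_sup_right (s (sc_mem _))) (Subgroup.mem_sup_left ⟨_, rfl⟩)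
  have e2 : (Y.comap dg).relIndex B * (Y'.map φ).relIndex φ.range = Y.relIndex X := by
    rw [← Subgroup.index_comap, Subgroup.comap_map_eq, ← e1]
    refine .trans ?_ (Subgroup.relIndex_mul_index (H := Y') (K := ψ.range ⊔ Y') le_sup_right)
    rw [Subgroup.relIndex_sup_right, ← Subgroup.index_comap]
    rfl
  obtain ⟨p1, p2⟩ := perm_aux (H := φ.range) (L := Y'.map φ) (by
    rintro _ ⟨x, rfl⟩
    obtain ⟨n, hn⟩ := t x x.2
    have h1 : φ x ^ 2 ^ n = 1 := (pp_pow (m x.2) _).symm.trans (pp_scal hn)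
    exact orderOf_dvd_iff_pow_eq_one.1 (Nat.Coprime.dvd_of_dvd_mul_left
      (Nat.Coprime.coprime_dvd_left (orderOf_dvd_of_pow_eq_one h1)
        (Nat.Coprime.pow_left n (by norm_num))) (orderOf_dvd_of_pow_eq_one (pow12 _))))
    (by rintro _ ⟨x, rfl⟩; exact ⟨x * x, sq _ x.2, map_mul _ _ _⟩)
  obtain ⟨q1, q2⟩ := tor_aux (B := B) (C := Y.comap dg) (fun a ha => ha.2)
    fun a ha => Subgroup.mem_comap.2 (map_mul (dg : _ →* G4 K) a a ▸ sq _ ha.1)
  obtain ⟨q3, q4⟩ := q2 (by nlinarith)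
  refine ⟨fun i => ?_, fun a ha => ?_, (p2 (by nlinarith)).imp (fun k τ a b => ?_) ?_⟩
  · have h1 : ∀ j, (Pi.mulSingle i (-1) : Fin 4 → Kˣ) j * (Pi.mulSingle i (-1) : Fin 4 → Kˣ) j = 1 :=
      fun j => by rw [Pi.mulSingle_apply]; split_ifs <;> simp
    rw [rr, sp]
    refine mul_mem (l (s (sc_mem _))) (q3 _ (inv_mul_cancel _) (funext fun j => ?_)).1
    rw [Pi.mul_apply, mul_mul_mul_comm, ← mul_inv, h1, h1]; simp
  · obtain ⟨b, b1, b2⟩ := q4 _ (mB a (l ha))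
      ((Y.mul_mem_cancel_left (s (sc_mem _))).1 (sp a ▸ ha))
    exact ⟨b, a 0, b1.1, by rw [sp a, b2, map_mul]⟩
  · obtain ⟨x, hx⟩ := k τ a b
    exact ⟨x, x.2, hx⟩
  · rintro ⟨σ, ⟨x, hx⟩, y, hy⟩
    exact ⟨σ, ⟨x, x.2, hx⟩, y, y.2, hy⟩

end Cfsg.Lib.Q4R
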