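import Cfsg.Agent.Lib.Q4R.Def
import Cfsg.Agent.Lib.PSL2.DicksonClosed

/-!
# Branch R5: the transvection, from Dickson's theorem
-/

set_option autoImplicit false

namespace Cfsg.Lib.Q4R

open scoped MatrixGroups Matrix
open Cfsg.Geo Equiv

variable {K : Type*} [Field K] [IsAlgClosed K] [NeZero (2 : K)]

omit [IsAlgClosed K] [NeZero (2 : K)] in
/-- The block matrices `x ⊕ a ⊕ 1`. -/
def blkM (K : Type*) [Field K] : Matrix (Fin 2) (Fin 2) K × K →* Matrix (Fin 4) (Fin 4) K where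
  toFun x := !![x.1 0 0, x.1 0 1, 0, 0; x.1 1 0, x.1 1 1, 0, 0; 0, 0, x.2, 0; 0, 0, 0, 1]
  map_one' := by ext i j; fin_cases i <;> fin_cases j <;> simp
  map_mul' x y := by ext i j; fin_cases i <;> fin_cases j <;> simp [Matrix.mul_apply, Fin.sum_univ_succ]

/-- The same for units. -/
def blkU (K : Type*) [Field K] : GL (Fin 2) K × Kˣ →* G4 K :=
  (Units.map (blkM K)).comp MulEquiv.prodUnits.symm.toMonoidHom

omit [IsAlgClosed K] [NeZero (2 : K)] in
theorem blkU_val (x : GL (Fin 2) K) (a : Kˣ) :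
    (blkU K (x, a)).1 = !![x 0 0, x 0 1, 0, 0; x 1 0, x 1 1, 0, 0; 0, 0, (a : K), 0; 0, 0, 0, 1] := rfl

omit [IsAlgClosed K] [NeZero (2 : K)] in
theorem blk_fin {G : Subgroup (G4 K)} (f : Finite (Sq G)) : Finite (G.comap (blkU K)) := by
  refine Finite.of_injective ((QuotientGroup.mk' ((scalars (Fin 4) K).subgroupOf G)).comp ((blkU K).subgroupComap G))
    ((injective_iff_map_eq_one _).2 fun ⟨⟨x, a⟩, h⟩ e => ?_)
  obtain ⟨c, e⟩ := mem_scal.1 (Subgroup.mem_subgroupOf.1 ((QuotientGroup.eq_one_iff _).1 e))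
  replace e : ∀ i j, (blkU K (x, a)).1 i j = (sc c : G4 K).1 i j := fun i j => congrArg (fun g : G4 K => g.1 i j) e
  simp only [blkU_val, sc_val] at e
  have c1 : (c : K) = 1 := by simpa using (e 3 3).symm
  refine Subtype.ext (Prod.ext (Units.ext ?_) (Units.ext (by simpa [c1] using e 2 2)))
  ext i j
  fin_cases i <;> fin_cases j
  exacts [by simpa [c1] using e 0 0, by simpa using e 0 1, by simpa using e 1 0, by simpa [c1] using e 1 1]

omit [IsAlgClosed K] [NeZero (2 : K)] in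
theorem ord_ne {a : K} (h : IsOfFinOrder a) : (orderOf a : K) ≠ 0 :=
  haveI : NeZero (orderOf a) := ⟨h.orderOf_pos.ne'⟩
  (IsPrimitiveRoot.orderOf a).neZero'.1

omit [IsAlgClosed K] [NeZero (2 : K)] in
theorem up_pow (u b : K) (n : ℕ) : !![u, u * b; 0, u] ^ n = !![u ^ n, u ^ n * (n * b); 0, u ^ n] := by
  induction n with
  | zero => simp [Matrix.one_fin_two]
  | succ n ih => rw [pow_succ, ih]; ext i j; fin_cases i <;> fin_cases j <;> simp [pow_succ]; ring

open PSL2 in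
omit [IsAlgClosed K] [NeZero (2 : K)] in
theorem tv_of {G : Subgroup (G4 K)} (f : Finite (Sq G)) {x : GL (Fin 2) K} {a : Kˣ} (h : blkU K (x, a) ∈ G) {z : P1 K}
    (m : Matrix.ProjGenLinGroup.mk x ∈ unip z) (n : Matrix.ProjGenLinGroup.mk x ≠ 1) : HasTv G := by
  obtain ⟨c, hc⟩ := exists_smul_inf z
  obtain ⟨b, e⟩ := (mem_unip_iff_conj hc).1 m
  obtain ⟨C, rfl⟩ := Matrix.ProjGenLinGroup.mk_surjective c
  have b0 : b ≠ 0 := by rintro rfl; simp [e] at n
  obtain ⟨u, u0, e1, e2, e3, e4⟩ := (pgl_mk_eq_mk_iff (gl2 ((1 : Kˣ) : K) b 0 1 (by simp)) (C⁻¹ * x * C)).1 (by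
    rw [map_mul, map_mul, map_inv, e]; change aff 1 b = _; group)
  have Y : (C⁻¹ * x * C).1 = !![u, u * b; 0, u] := by
    ext i j
    fin_cases i <;> fin_cases j
    exacts [by simpa using e1, by simpa using e2, by simpa using e3, by simpa using e4]
  haveI := blk_fin f
  obtain ⟨N, N0, hN⟩ := isOfFinOrder_iff_pow_eq_one.1 (isOfFinOrder_of_finite (⟨(x, a), h⟩ : G.comap (blkU K)))
  replace hN : (x, a) ^ N = 1 := congrArg Subtype.val hN
  have cp : ∀ k : ℕ, (C⁻¹ * x * C) ^ k = C⁻¹ * x ^ k * C := fun k => by simpa using conj_pow (a := C⁻¹) (b := x) (i := k)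
  have fu : IsOfFinOrder u := isOfFinOrder_iff_pow_eq_one.2 ⟨N, N0, by
    have := congrArg (fun g : GL (Fin 2) K => g.1 0 0) (cp N)
    simp only [Units.val_pow_eq_pow_val, Y, up_pow, show x ^ N = 1 from congrArg Prod.fst hN] at this
    simpa using this⟩
  have fa : IsOfFinOrder (a : K) := isOfFinOrder_iff_pow_eq_one.2 ⟨N, N0, by
    rw [← Units.val_pow_eq_pow_val, show a ^ N = 1 from congrArg Prod.snd hN, Units.val_one]⟩
  refine HasTv.of_cj (k := (blkU K (C, 1))⁻¹) ⟨blkU K (C⁻¹ * x * C, a) ^ (orderOf u * orderOf (a : K)), mem_cj.2 ?_,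
    ![(orderOf u * orderOf (a : K) : ℕ) * b, 0, 0, 0], ![0, 1, 0, 0], fun r => ?_, by simp, by simp, ?_⟩
  · rw [inv_inv, ← conj_pow, ← map_inv, ← map_mul, ← map_mul]
    refine pow_mem ?_ _
    simpa [mul_assoc] using h
  · simpa [ord_ne fu, ord_ne fa, b0] using congrFun r 0
  · rw [← map_pow, Prod.pow_mk, blkU_val]
    simp only [Units.val_pow_eq_pow_val, Y, up_pow]
    rw [pow_mul u, pow_mul' (a : K), pow_orderOf_eq_one, pow_orderOf_eq_one, one_pow]
    ext i j
    fin_cases i <;> fin_cases j <;> simp [Matrix.vecMulVec_apply]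

/-- Let `blk : GL₂ × GL₂ →* GL₄` be the block diagonal embedding, `δ = diag(ζ⁻¹, 1) ∈ GL₂`,
`H₁ = {x ∈ GL₂ | ∃ j, blk (x, δ ^ j) ∈ G}` and `H` its image in `PGL(2, K)`.  `H` is finite (the
group of all `blk (x, δ ^ j) ∈ G` maps onto `H` and the map kills scalars, so `H` is a quotient of a
subgroup of `Sq G`).  `H` contains the images of `u = diag(ζ, 1)` (order `8`), of the swap `P` and of
`d₁ = !![l, m; m, l]`.  Apply `PSL2.dickson_regular`: a non-trivial power of `u` fixes only the two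
basis points, `P` moves both; a pair stabilised by `u` is fixed by `u²`, so it is the basis pair,
which `d₁` does not stabilise; `A₄`, `S₄`, `A₅` have no element of order `8`.  So some
`blk (x, δ ^ j) ∈ G` has `x = c n`, `n ≠ 1` unipotent (`(n - 1)² = 0`).  With `p = ringChar K` (`K` has
prime characteristic or else `n` has infinite order modulo scalars, which is excluded):
`g = blk (x, δ ^ j) ^ 8 = blk (c⁸ n⁸, 1)`; a power of `g` is scalar, so `c⁸` has finite order `e`,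
which is non-zero in `K` (the order of a root of unity is prime to the characteristic);
`g ^ e = blk (1 + 8 e (n - 1), 1)` is a transvection. -/
theorem dk {G : Subgroup (G4 K)} (f : Finite (Sq G)) {ζ : Kˣ} (hζ : ζ ^ 4 = -1)
    (g8 : dg ![ζ, 1, ζ⁻¹, 1] ∈ G) (p : pm (swap 0 1) ∈ G) {d : G4 K} (hd : d ∈ G) {l m : K}
    (hl : l ≠ 0) (hm : m ≠ 0) (e : d.1 = !![l, m, 0, 0; m, l, 0, 0; 0, 0, 1, 0; 0, 0, 0, 1]) :
    HasTv G := by
  open PSL2 in
  haveI := blk_fin f
  let H := (G.comap (blkU K)).map (Matrix.ProjGenLinGroup.mk.comp (MonoidHom.fst _ _))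
  haveI : Finite H := Finite.of_surjective _ (MonoidHom.subgroupMap_surjective _ _)
  by_contra n
  have n1 : (-1 : Kˣ) ≠ 1 := fun r => two_ne_zero (α := K) (by
    have := congrArg Units.val r
    simp only [Units.val_neg, Units.val_one] at this
    linear_combination -this)
  have mu : aff ζ 0 ∈ H := ⟨(gl2 ζ 0 0 1 (by simp), ζ⁻¹), by
    convert g8 using 1
    change _ ∈ G ↔ _
    congr! 1
    refine Units.ext ?_
    ext i j
    fin_cases i <;> fin_cases j <;> simp [blkU_val, dg_val], rfl⟩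
  have mp : swp 1 ∈ H := ⟨(gl2 0 ((1 : Kˣ) : K) 1 0 (by simp), 1), by
    convert p using 1
    change _ ∈ G ↔ _
    congr! 1
    refine Units.ext ?_
    ext i j
    fin_cases i <;> fin_cases j <;> simp (decide := true) [blkU_val, pm_apply], rfl⟩
  have dt : l * l - m * m ≠ 0 := by
    have := d.det_ne_zero
    rw [e] at this
    simpa [Matrix.det_succ_row_zero, Fin.sum_univ_succ, sub_eq_add_neg, Fin.succAbove] using this
  have md : Matrix.ProjGenLinGroup.mk (gl2 l m m l dt) ∈ H := ⟨(gl2 l m m l dt, 1), by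
    convert hd using 1
    change _ ∈ G ↔ _
    congr! 1
    exact Units.ext (by simp [blkU_val, e]), rfl⟩
  have z2 : ζ ^ 2 ≠ 1 := fun r => n1 (by rw [← hζ, show 4 = 2 * 2 from rfl, pow_mul, r, one_pow])
  have fx : ∀ x : P1 K, aff ζ 0 • aff ζ 0 • x = x → x = inf ∨ x = pt 0 := fun x r => (eq_inf_or_eq_pt x).imp_right (by
    rintro ⟨y, rfl⟩
    simp only [aff_smul_pt, add_zero, pt_inj] at r ⊢
    exact by_contra fun y0 => z2 (Units.ext (mul_right_cancel₀ y0 (by simpa [sq, mul_assoc] using r))))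
  have o : ∀ {X : Type} [Group X], (H ≃* X) → ¬ ∀ g : X, g ^ 60 = 1 := fun φ k => n1 (by
    have : aff ζ 0 ^ 60 = 1 := congrArg Subtype.val (φ.injective ((map_pow φ ⟨_, mu⟩ 60).trans ((k _).trans (map_one φ).symm)))
    rw [aff_zero_pow, aff_eq_one_iff, show 60 = 4 * 15 from rfl, pow_mul, hζ] at this
    simpa [pow_succ] using this.1)
  rcases dickson_regular H (fun z => eq_bot_iff.2 (by
    rintro _ ⟨⟨⟨x, a⟩, h, rfl⟩, k⟩
    exact by_contra fun r => n (tv_of f h k r))) with ⟨x, k⟩ | ⟨x, y, xy, k⟩ | ⟨⟨φ⟩⟩ | ⟨⟨φ⟩⟩ | ⟨⟨φ⟩⟩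
  · have := k _ mp
    rcases fx x (by rw [k _ mu, k _ mu]) with rfl | rfl <;> simp at this
  · have hx := fx x (by rcases k _ mu with ⟨a, b⟩ | ⟨a, b⟩ <;> simp only [a, b])
    have hy := fx y (by rcases k _ mu with ⟨a, b⟩ | ⟨a, b⟩ <;> simp only [a, b])
    have a1 : Matrix.ProjGenLinGroup.mk (gl2 l m m l dt) • (inf : P1 K) ≠ inf := by
      rw [pgl_mk_smul, Ne, gl_smul_inf_eq_inf]; simpa using hm
    have a2 : Matrix.ProjGenLinGroup.mk (gl2 l m m l dt) • (inf : P1 K) ≠ pt 0 := by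
      rw [pgl_mk_smul, Ne, gl_smul_inf_eq_pt]; simpa using hl
    rcases hx with rfl | rfl <;> rcases hy with rfl | rfl <;> rcases k _ md with ⟨a, b⟩ | ⟨a, b⟩ <;> contradiction
  · refine o φ fun g => orderOf_dvd_iff_pow_eq_one.1 ((orderOf_dvd_natCard g).trans ?_)
    rw [alternatingGroup.card_of_card_eq_four (by simp)]
    decide
  · have : ∀ g : Perm (Fin 4), g ^ 12 = 1 := by decide +kernel
    exact o φ fun g => by rw [show 60 = 12 * 5 from rfl, pow_mul, this, one_pow]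
  · refine o φ fun g => orderOf_dvd_iff_pow_eq_one.1 ((orderOf_dvd_natCard g).trans ?_)
    have := two_mul_nat_card_alternatingGroup (α := Fin 5)
    rw [Nat.card_perm, Nat.card_fin] at this
    exact dvd_of_eq (by simp [Nat.factorial] at this ⊢; omega)

end Cfsg.Lib.Q4R
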