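import Cfsg.Agent.Lib.Q4R.MatA

/-!
# Branch R5: matrix computations, part B
-/

set_option autoImplicit false

namespace Cfsg.Lib.Q4R

open scoped MatrixGroups Matrix
open Cfsg.Geo Equiv

variable {K : Type*} [Field K]

variable [NeZero (2 : K)]

variable [IsAlgClosed K]

/-- Conjugates of `diag(i, i, 1, 1)`. -/
structure Hf (x : G4 K) : Prop where
  q : Hq x
  tr : x.1.trace = 2 + 2 * ii K

namespace MB

omit [NeZero (2 : K)] [IsAlgClosed K] in
theorem conj_dg {x : G4 K} (hx : x ∈ NN (Fin 4) K) (b : Fin 4 → Kˣ) :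
    x * dg b * x⁻¹ = dg fun i => b ((pp x)⁻¹ i) := by
  obtain ⟨a, σ, rfl⟩ := hx
  rw [pp_mon]
  calc _ = dg a * (pm σ * dg b * (pm σ)⁻¹) * (dg a)⁻¹ := by group
    _ = _ := by rw [pm_dg_conj, ← map_mul, ← map_inv, ← map_mul, mul_inv_cancel_comm]

omit [NeZero (2 : K)] [IsAlgClosed K] in
theorem single_inv (σ : Perm (Fin 4)) (i k : Fin 4) (c : Kˣ) :
    (Pi.mulSingle i c : Fin 4 → Kˣ) (σ⁻¹ k) = (Pi.mulSingle (σ i) c : Fin 4 → Kˣ) k := by
  simp only [Pi.mulSingle_apply, Perm.inv_eq_iff_eq]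

omit [NeZero (2 : K)] [IsAlgClosed K] in
theorem pm_sw (τ : Perm (Fin 4)) (i j : Fin 4) (a : Kˣ) :
    (pm τ * sw i j a * (pm τ)⁻¹ : G4 K) = sw (τ i) (τ j) a := by
  unfold sw
  calc _ = (pm τ * dg (Pi.mulSingle i a * Pi.mulSingle j a⁻¹) * (pm τ)⁻¹ : G4 K) *
        (pm τ * pm (swap i j) * (pm τ)⁻¹) := by group
    _ = _ := by
      rw [pm_dg_conj, ← map_inv, ← map_mul, ← map_mul, ← swap_apply_apply]
      congr 2
      funext k
      simp only [Pi.mul_apply, single_inv]

omit [NeZero (2 : K)] in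
theorem ii_four : ii K ^ 4 = 1 := by
  rw [show (4 : ℕ) = 2 * 2 from rfl, pow_mul, pow_two (ii K), ii_sq]
  simp

theorem ii_order : orderOf (ii K) = 4 := by
  haveI : Fact (Nat.Prime 2) := ⟨Nat.prime_two⟩
  refine orderOf_eq_prime_pow (p := 2) (n := 1) (fun e => ?_) ii_four
  rw [pow_one, pow_two, ii_sq] at e
  have := congrArg Units.val e
  simp only [Units.val_neg, Units.val_one] at this
  exact NeZero.ne (2 : K) (by linear_combination -this)

theorem one_add_ii : (1 + ii K : K) ≠ 0 := fun e =>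
  NeZero.ne (2 : K) (by linear_combination (1 - ii K : K) * e + ii_val (K := K))

theorem one_sub_ii : (1 - ii K : K) ≠ 0 := fun e =>
  NeZero.ne (2 : K) (by linear_combination (1 + ii K : K) * e + ii_val (K := K))

omit [NeZero (2 : K)] [IsAlgClosed K] in
theorem sgn_mem {X : Subgroup (G4 K)} (r : ∀ i, rr i ∈ X) {s : Fin 4 → Kˣ}
    (h : ∀ k, s k * s k = 1) : dg s ∈ X := by
  change s ∈ X.comap (dg : (Fin 4 → Kˣ) →* G4 K)
  rw [← Finset.univ_prod_mulSingle s]
  refine prod_mem fun k _ => ?_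
  have : (s k : K) * s k = 1 := by rw [← Units.val_mul, h k, Units.val_one]
  rcases mul_self_eq_one_iff.1 this with e | e
  · rw [show s k = 1 from Units.ext e, Pi.mulSingle_one]; exact one_mem _
  · rw [show s k = -1 from Units.ext e]; exact r k

theorem third : ∀ i j : Fin 4, ∃ k : Fin 4, k ≠ i ∧ k ≠ j := by decide

theorem sq_sq {x : G4 K} (h : Hq x) : x * x * (x * x) = 1 := by
  unfold Hq at h
  have e : ((2 : K) • x.1) * ((2 : K) • x.1) = (4 : K) • (x * x).1 := by
    rw [Matrix.smul_mul, Matrix.mul_smul, smul_smul, Units.val_mul]; norm_num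
  rw [h] at e
  simp only [mul_add, add_mul, Matrix.smul_mul, Matrix.mul_smul, one_mul, mul_one] at e
  refine Units.ext (Matrix.ext fun k l => ?_)
  have := congrFun (congrFun e k) l
  simp only [Matrix.add_apply, Matrix.smul_apply, smul_eq_mul] at this
  rw [Units.val_mul (x * x), Units.val_one]
  refine mul_left_cancel₀ (mul_ne_zero (NeZero.ne (2 : K)) (ii K).ne_zero) ?_
  linear_combination -this + ((1 : Matrix (Fin 4) (Fin 4) K) k l - 2 * (x * x).1 k l +
    ((x * x).1 * (x * x).1) k l) * ii_val (K := K)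

end MB

omit [NeZero (2 : K)] in
theorem Hf.conj {x : G4 K} (h : Hf x) (k : G4 K) : Hf (k * x * k⁻¹) := by
  refine ⟨?_, by rw [Units.val_mul, Units.val_mul, Matrix.trace_units_conj, h.tr]⟩
  have := congrArg (fun M => k.1 * M * (k⁻¹).1) h.q
  simp only [mul_add, add_mul, Matrix.mul_smul, Matrix.smul_mul, mul_one, Units.mul_inv] at this
  unfold Hq
  rw [show k * x * k⁻¹ * (k * x * k⁻¹) = k * (x * x) * k⁻¹ by group]
  exact this

omit [NeZero (2 : K)] in
theorem hf_hh {i j : Fin 4} (h : i ≠ j) : Hf (hh i j : G4 K) := by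
  have := ii_val (K := K)
  constructor
  · unfold Hq hh
    rw [← map_mul, dg_val, dg_val]
    ext k l
    by_cases e : k = l
    · subst e
      by_cases hi : k = i
      · subst hi
        simp [h]
        linear_combination (ii K - 1 : K) * this
      by_cases hj : k = j
      · subst hj
        simp [hi]
        linear_combination (ii K - 1 : K) * this
      · simp [hi, hj]
        norm_num
    · simp [e]
  · unfold hh
    rw [dg_val, Matrix.trace_diagonal, Fin.sum_univ_four]
    fin_cases i <;> fin_cases j <;> simp at h ⊢ <;> ring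

omit [NeZero (2 : K)] in
theorem hh_sq (i j : Fin 4) : (hh i j * hh i j : G4 K) = rr i * rr j := by
  unfold hh rr
  rw [← map_mul, ← map_mul, mul_mul_mul_comm, ← Pi.mulSingle_mul, ← Pi.mulSingle_mul, ii_sq]

omit [NeZero (2 : K)] in
theorem hh_comm (i j : Fin 4) : (hh i j : G4 K) = hh j i := by
  unfold hh
  rw [mul_comm]

omit [NeZero (2 : K)] in
theorem conj_hh {x : G4 K} (hx : x ∈ NN (Fin 4) K) (i j : Fin 4) :
    x * hh i j * x⁻¹ = hh (pp x i) (pp x j) := by
  unfold hh
  rw [MB.conj_dg hx]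
  congr 1
  funext k
  simp only [Pi.mul_apply, MB.single_inv]

omit [NeZero (2 : K)] in
theorem hh_gam (i j : Fin 4) (H : Subgroup (Perm (Fin 4))) : hh i j ∈ Gam K H := by
  refine ⟨Pi.mulSingle i (ii K) * Pi.mulSingle j (ii K), 1, fun k => ?_, one_mem _,
    by rw [map_one, mul_one]; rfl⟩
  simp only [Pi.mul_apply, Pi.mulSingle_apply, mul_pow]
  split_ifs <;> simp [MB.ii_four]

/-- `x = dg a * pm σ`.  If `σ j ≠ j`, the `(j, j)` entry of `Hq` gives `(x²) j j ≠ 0`, so `σ² j = j`,
and then the `(σ j, j)` entry reads `2 a = 0`.  So `x` is diagonal, its entries are roots `1`, `i` of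
`(1 - i) (X - 1) (X - i)`, and the trace shows that `i` occurs twice. -/
theorem Hf.mon {x : G4 K} (h : Hf x) (hx : x ∈ NN (Fin 4) K) : ∃ i j, i ≠ j ∧ x = hh i j := by
  obtain ⟨a, σ, rfl⟩ := hx
  have q := h.q
  unfold Hq at q
  rw [mon_mul] at q
  have q' : ∀ k l, 2 * (if k = σ l then (a k : K) else 0) =
      (1 + ii K : K) * (if k = l then 1 else 0) +
        (1 - ii K : K) * (if k = σ (σ l) then (a k : K) * a (σ⁻¹ k) else 0) := fun k l => by
    have := congrFun (congrFun q k) l
    simp only [Matrix.add_apply, Matrix.smul_apply, smul_eq_mul, mon_apply] at this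
    exact this
  have hσ : σ = 1 := Equiv.ext fun j => by
    by_contra e
    change σ j ≠ j at e
    have h1 := q' j j
    have h2 := q' (σ j) j
    rw [if_neg e.symm, if_pos rfl] at h1
    have h3 : j = σ (σ j) := by
      by_contra h3
      rw [if_neg h3] at h1
      exact MB.one_add_ii (K := K) (by linear_combination -h1)
    rw [if_pos rfl, if_neg e, ← h3, if_neg e] at h2
    exact mul_ne_zero (NeZero.ne (2 : K)) (a (σ j)).ne_zero (by linear_combination h2)
  subst hσ
  have ent : ∀ k, a k = 1 ∨ a k = ii K := fun k => by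
    have h1 := q' k k
    simp only [Perm.one_apply, inv_one, if_true] at h1
    have : (1 - ii K : K) * ((a k - 1) * (a k - ii K)) = 0 := by
      linear_combination -h1 + ((a k : K) - 1) * ii_val (K := K)
    rcases mul_eq_zero.1 ((mul_eq_zero.1 this).resolve_left MB.one_sub_ii) with e | e
    · exact .inl (Units.ext (sub_eq_zero.1 e))
    · exact .inr (Units.ext (sub_eq_zero.1 e))
  have tr := h.tr
  rw [mon_trace, Fin.sum_univ_four] at tr
  simp only [Perm.one_apply, if_true] at tr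
  have h1 := MB.one_sub_ii (K := K)
  have h2 := mul_ne_zero (NeZero.ne (2 : K)) h1
  have key : ∀ i j : Fin 4, i ≠ j → a = Pi.mulSingle i (ii K) * Pi.mulSingle j (ii K) →
      ∃ i j, i ≠ j ∧ (dg a * pm 1 : G4 K) = hh i j :=
    fun i j hij e => ⟨i, j, hij, by rw [map_one, mul_one, e]; rfl⟩
  rcases ent 0 with e0 | e0 <;> rcases ent 1 with e1 | e1 <;> rcases ent 2 with e2 | e2 <;>
    rcases ent 3 with e3 | e3 <;> simp only [e0, e1, e2, e3, Units.val_one] at tr
  · exact absurd (by linear_combination tr) h2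
  · exact absurd (by linear_combination tr) h1
  · exact absurd (by linear_combination tr) h1
  · exact key 2 3 (by decide) (funext fun k => by fin_cases k <;> simp [e0, e1, e2, e3])
  · exact absurd (by linear_combination tr) h1
  · exact key 1 3 (by decide) (funext fun k => by fin_cases k <;> simp [e0, e1, e2, e3])
  · exact key 1 2 (by decide) (funext fun k => by fin_cases k <;> simp [e0, e1, e2, e3])
  · exact absurd (by linear_combination -tr) h1
  · exact absurd (by linear_combination tr) h1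
  · exact key 0 3 (by decide) (funext fun k => by fin_cases k <;> simp [e0, e1, e2, e3])
  · exact key 0 2 (by decide) (funext fun k => by fin_cases k <;> simp [e0, e1, e2, e3])
  · exact absurd (by linear_combination -tr) h1
  · exact key 0 1 (by decide) (funext fun k => by fin_cases k <;> simp [e0, e1, e2, e3])
  · exact absurd (by linear_combination -tr) h1
  · exact absurd (by linear_combination -tr) h1
  · exact absurd (by linear_combination -tr) h2

/-- The frame lemma: `hh 0 1 * hh 0 2 * hh 0 2 = diag(-i, i, -1, 1)` has distinct entries and `k`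
conjugates it to a diagonal matrix. -/
theorem frame {k : G4 K} (h1 : k * hh 0 1 * k⁻¹ ∈ NN (Fin 4) K)
    (h2 : k * hh 0 2 * k⁻¹ ∈ NN (Fin 4) K) : k ∈ NN (Fin 4) K := by
  obtain ⟨i, j, -, e1⟩ := ((hf_hh (by decide)).conj k).mon h1
  obtain ⟨i', j', -, e2⟩ := ((hf_hh (by decide)).conj k).mon h2
  have e : (dg fun l => ii K ^ (![3, 1, 2, 0] l : ℕ) : G4 K) = hh 0 1 * hh 0 2 * hh 0 2 := by
    unfold hh
    rw [← map_mul, ← map_mul]
    congr 1
    funext l
    fin_cases l <;> simp [pow_succ]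
  refine mem_NN_of_conj (a := fun l => ii K ^ (![3, 1, 2, 0] l : ℕ))
    (b := (Pi.mulSingle i (ii K) * Pi.mulSingle j (ii K)) *
      (Pi.mulSingle i' (ii K) * Pi.mulSingle j' (ii K)) *
      (Pi.mulSingle i' (ii K) * Pi.mulSingle j' (ii K))) (fun l m hlm => ?_) ?_
  · have b : ∀ l : Fin 4, (![3, 1, 2, 0] l : ℕ) ∈ Set.Iio (orderOf (ii K)) := fun l => by
      rw [MB.ii_order]; fin_cases l <;> simp
    have := pow_injOn_Iio_orderOf (b l) (b m) hlm
    revert this
    fin_cases l <;> fin_cases m <;> simp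
  · rw [e, map_mul, map_mul]
    change _ = hh i j * hh i' j' * hh i' j'
    rw [← e1, ← e2]
    group

/-- `y = x²`, `y² = 1` (as `(x - 1) (x - i) = 0`), `2 x⁻¹ = (1 - i) + (1 + i) y`, `y r_i y = r_j`, so
`x r_i x⁻¹ = (r_i + r_j) / 2 + (i / 2) (r_i y - y r_i) = 1 - E_ii - E_jj - i y_ij E_ij + i y_ji E_ji`. -/
theorem Hq.swap {x : G4 K} (h : Hq x) (hx : x * x ∈ NN (Fin 4) K) {i : Fin 4}
    (hi : pp (x * x) i ≠ i) : ∃ a, x * rr i * x⁻¹ = sw i (pp (x * x) i) a := by
  have y2 := MB.sq_sq h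
  obtain ⟨b, σ, e⟩ := hx
  unfold Hq at h
  rw [e, pp_mon] at hi ⊢
  rw [e] at h y2
  rw [mon_mul, show (1 : G4 K) = dg 1 * pm 1 by simp] at y2
  obtain ⟨y3, y4⟩ := mon_inj y2
  have s2 : ∀ k, σ (σ k) = k := fun k => congrArg (fun τ : Perm (Fin 4) => τ k) y4
  generalize hj : σ i = j at hi
  have hj' : σ j = i := by rw [← hj, s2]
  have bij : (b i : K) * b j = 1 := by
    have := congrFun y3 i
    rw [Pi.mul_apply, show σ⁻¹ i = j by rw [Perm.inv_eq_iff_eq, hj'], Pi.one_apply] at this
    rw [← Units.val_mul, this, Units.val_one]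
  have iv := ii_val (K := K)
  have ai : ((-(ii K * b i))⁻¹ : Kˣ) = ii K * b j :=
    inv_eq_of_mul_eq_one_right (Units.ext (by
      push_cast
      linear_combination (-(b i : K) * b j) * iv + bij))
  refine ⟨-(ii K * b i), ?_⟩
  rw [mul_inv_eq_iff_eq_mul]
  refine Units.ext (smul_right_injective _ (NeZero.ne (2 : K)) ?_)
  change (2 : K) • (x.1 * (rr i : G4 K).1) = (2 : K) • ((sw i j (-(ii K * b i)) : G4 K).1 * x.1)
  rw [← Matrix.smul_mul, ← Matrix.mul_smul, h]
  simp only [mul_add, add_mul, Matrix.smul_mul, Matrix.mul_smul, one_mul, mul_one, ← Units.val_mul]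
  have r1 : (rr i : G4 K) = dg (Pi.mulSingle i (-1)) * pm 1 := by rw [map_one, mul_one]; rfl
  unfold sw
  rw [r1, mon_mul, mon_mul, ai]
  ext k l
  simp only [Matrix.add_apply, Matrix.smul_apply, smul_eq_mul, mon_apply]
  simp only [Pi.mul_apply, MB.single_inv, hj, swap_inv, Units.val_mul]
  by_cases li : l = i
  · subst li
    by_cases k1 : k = l
    · subst k1
      simp [hi.symm, hj]
      linear_combination (-(ii K : K) + ii K * ii K) * (-bij) - iv
    by_cases k2 : k = j
    · subst k2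
      simp [hi, hj]
      linear_combination (-(b k : K)) * iv
    · simp [k1, k2, hj]
  by_cases lj : l = j
  · subst lj
    by_cases k1 : k = l
    · subst k1
      simp [hi, hj']
      linear_combination (ii K - ii K * ii K : K) * (-bij) + iv
    by_cases k2 : k = i
    · subst k2
      simp [hi.symm, hj']
      linear_combination (b k : K) * iv
    · simp [k1, k2, hj']
  have a1 : σ l ≠ i := fun e => lj (by rw [← hj, ← e, s2])
  have a2 : σ l ≠ j := fun e => li (by rw [← hj', ← e, s2])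
  have a3 := swap_apply_of_ne_of_ne li lj
  have a4 := swap_apply_of_ne_of_ne a1 a2
  congr 2
  · by_cases e : k = l
    · subst e; simp [li, lj, a3]
    · simp [e, a3]
  · by_cases e : k = σ l
    · subst e; simp [a1, a2, a4]
    · simp [e, a4]

omit [NeZero (2 : K)] in
/-- A diagonal square root of `r_i r_j` modulo scalars is `hh i j` up to scalars and signs. -/
theorem MB.hh_of_sq {X : Subgroup (G4 K)} (s : scalars (Fin 4) K ≤ X) (r : ∀ i, rr i ∈ X)
    {i j : Fin 4} {b : Fin 4 → Kˣ} {c : Kˣ} (hb : dg b ∈ X)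
    (e : (rr i * rr j : G4 K) = sc c * (dg b * dg b)) : hh i j ∈ X := by
  obtain ⟨k, hi, hj⟩ := MB.third i j
  rw [← hh_sq, sc_eq] at e
  unfold hh at e ⊢
  generalize hd : (Pi.mulSingle i (ii K) * Pi.mulSingle j (ii K) : Fin 4 → Kˣ) = d at e
  have dk : d k = 1 := by simp [← hd, hi, hj]
  simp only [← map_mul] at e
  have e' := congrFun (dg_inj e)
  simp only [Pi.mul_apply] at e'
  have : (dg d : G4 K) = sc (b k)⁻¹ * dg b * dg fun l => d l * b k / b l := by
    rw [sc_eq, ← map_mul, ← map_mul]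
    congr 1
    funext l
    refine Units.ext ?_
    simp only [Pi.mul_apply]
    push_cast
    field_simp
  rw [this]
  refine mul_mem (mul_mem (s (sc_mem _)) hb) (MB.sgn_mem r fun l => ?_)
  have h1 := e' k
  rw [dk, one_mul] at h1
  rw [div_mul_div_comm, mul_mul_mul_comm, e' l, div_eq_one]
  calc _ = c * (b k * b k) * (b l * b l) := by ac_rfl
    _ = _ := by rw [← h1, one_mul]

/-- A diagonal square root of `r_i r_j` modulo scalars is `hh i j` up to scalars and signs. -/
theorem hh_of_sq {X : Subgroup (G4 K)} (s : scalars (Fin 4) K ≤ X) (r : ∀ i, rr i ∈ X)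
    {i j : Fin 4} (h : i ≠ j) {b : Fin 4 → Kˣ} {c : Kˣ} (hb : dg b ∈ X)
    (e : (rr i * rr j : G4 K) = sc c * (dg b * dg b)) : hh i j ∈ X :=
  have _ := h
  have _ : (2 : K) ≠ 0 := NeZero.ne _
  MB.hh_of_sq s r hb e

omit [IsAlgClosed K] in
/-- `x = dg a * pm (i j)`, `x² = c b²`: `b i = ± b j`; replacing `b` by `b r_j` we have `b i = b j`,
`b` commutes with `x`, `(x b⁻¹)² = c`; divide by a fixed entry and correct the sign of the other. -/
theorem sw_of_sq {X : Subgroup (G4 K)} (s : scalars (Fin 4) K ≤ X) (r : ∀ i, rr i ∈ X)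
    {i j : Fin 4} (h : i ≠ j) {x : G4 K} (hx : x ∈ X) (m : x ∈ NN (Fin 4) K)
    (p : pp x = swap i j) {b : Fin 4 → Kˣ} {c : Kˣ} (hb : dg b ∈ X)
    (e : x * x = sc c * (dg b * dg b)) : ∃ a, sw i j a ∈ X := by
  have _ : (2 : K) ≠ 0 := NeZero.ne _
  obtain ⟨a, ha⟩ := ex_pp m
  rw [p] at ha
  subst ha
  obtain ⟨k, hi, hj⟩ := MB.third i j
  rw [mon_mul, swap_mul_self, map_one, mul_one, sc_eq] at e
  simp only [← map_mul] at e
  have e' := congrFun (dg_inj e)
  simp only [Pi.mul_apply, swap_inv] at e'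
  have ev : ∀ l, (a l : K) * a (swap i j l) = c * (b l * b l) := fun l => by
    simpa using congrArg Units.val (e' l)
  have ek := ev k
  rw [swap_apply_of_ne_of_ne hi hj] at ek
  refine ⟨a i * (b k / a k) / b i, ?_⟩
  unfold sw
  generalize hd : (Pi.mulSingle i (a i * (b k / a k) / b i) *
    Pi.mulSingle j (a i * (b k / a k) / b i)⁻¹ : Fin 4 → Kˣ) = d
  have : (dg d : G4 K) = sc (b k / a k) * (dg b)⁻¹ *
      (dg fun l => d l / a l * b l / (b k / a k)) * dg a := by
    rw [sc_eq, ← map_inv, ← map_mul, ← map_mul, ← map_mul]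
    congr 1
    funext l
    refine Units.ext ?_
    simp only [Pi.mul_apply, Pi.inv_apply]
    push_cast
    field_simp
  rw [this, mul_assoc]
  refine mul_mem (mul_mem (mul_mem (s (sc_mem _)) (inv_mem hb)) (MB.sgn_mem r fun l => ?_)) hx
  refine Units.ext ?_
  have n1 := (a k).ne_zero
  have n2 := (b k).ne_zero
  have n3 := (a i).ne_zero
  have n4 := (b i).ne_zero
  have n5 := (a l).ne_zero
  have n6 := (b l).ne_zero
  have el := ev l
  by_cases li : l = i
  · subst li
    simp [← hd, h]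
    field_simp
  by_cases lj : l = j
  · subst lj
    have ei := ev i
    rw [swap_apply_left] at ei
    rw [swap_apply_right] at el
    simp [← hd, li]
    field_simp
    linear_combination ((b i : K) ^ 2 * b l ^ 2 * (a k ^ 2 + c * b k ^ 2)) * ek -
      (b k : K) ^ 4 * (a i * a l) * ei - (b k : K) ^ 4 * c * b i ^ 2 * el
  · rw [swap_apply_of_ne_of_ne li lj] at el
    simp [← hd, li, lj]
    field_simp
    linear_combination (b l : K) ^ 2 * ek - (b k : K) ^ 2 * el

omit [IsAlgClosed K] [NeZero (2 : K)] in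
/-- `n = dg c * pm σ⁻¹`. -/
theorem norm_sw (σ : Perm (Fin 4)) (a b : Kˣ) : ∃ n ∈ NN (Fin 4) K, pp n = σ⁻¹ ∧
    n * sw (σ 0) (σ 1) a * n⁻¹ = pm (swap 0 1) ∧ n * sw (σ 2) (σ 3) b * n⁻¹ = pm (swap 2 3) := by
  have key : ∀ (i j : Fin 4) (u : Kˣ), i ≠ j → (dg ![1, a, 1, b] * pm σ⁻¹ * sw (σ i) (σ j) u *
      (dg ![1, a, 1, b] * pm σ⁻¹)⁻¹ : G4 K) =
      sw i j (![1, a, 1, b] i * u * (![1, a, 1, b] j)⁻¹) := fun i j u hij => by
    have := MB.pm_sw (K := K) σ⁻¹ (σ i) (σ j) u
    simp only [Perm.coe_inv, symm_apply_apply] at this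
    rw [← dg_sw _ hij, ← this]
    group
  refine ⟨_, mon_mem ![1, a, 1, b] σ⁻¹, pp_mon _ _, ?_, ?_⟩
  · rw [key 0 1 a (by decide), ← sw_one]; simp
  · rw [key 2 3 b (by decide), ← sw_one]; simp

end Cfsg.Lib.Q4R
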