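import Cfsg.Agent.Lib.Q4R.Def

/-!
# Branch R5: matrix computations, part A (reflections)
-/

set_option autoImplicit false
set_option linter.unusedSectionVars false
set_option linter.unusedVariables false

namespace Cfsg.Lib.Q4R

open scoped MatrixGroups Matrix
open Cfsg.Geo Equiv

variable {K : Type*} [Field K]

/-- Reflections. -/
structure Rf (x : G4 K) : Prop where
  sq : x * x = 1
  tr : x.1.trace = 2
  det : x.1.det = -1

theorem Rf.conj {x : G4 K} (h : Rf x) (k : G4 K) : Rf (k * x * k⁻¹) :=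
  ⟨by rw [conj_mul, h.sq, mul_one, mul_inv_cancel], (Matrix.trace_units_conj k x.1).trans h.tr,
    (Matrix.det_units_conj k x.1).trans h.det⟩

theorem rf_rr (i : Fin 4) : Rf (rr i : G4 K) := by
  refine ⟨by rw [rr, ← map_mul, ← Pi.mulSingle_mul, neg_mul_neg, one_mul, Pi.mulSingle_one, map_one], ?_, ?_⟩
  · rw [rr, dg_val, Matrix.trace_diagonal, Fin.sum_univ_four]
    fin_cases i <;> simp <;> norm_num
  · rw [rr, dg_val, Matrix.det_diagonal, Fin.prod_univ_four]
    fin_cases i <;> simp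

theorem rf_sw {i j : Fin 4} (h : i ≠ j) (a : Kˣ) : Rf (sw i j a : G4 K) := by
  refine ⟨?_, ?_, ?_⟩
  · rw [sw, mon_mul, swap_mul_self, map_one, mul_one, ← map_one dg]
    refine congrArg dg (funext fun k => ?_)
    by_cases a : k = i
    · simp [a, h, h.symm]
    by_cases b : k = j
    · simp [b, h, h.symm]
    simp [swap_apply_of_ne_of_ne a b, a, b]
  · rw [sw, mon_trace, Fin.sum_univ_four]
    fin_cases i <;> fin_cases j <;> simp [swap_apply_def] at h ⊢ <;> norm_num
  · rw [sw, mon_det, Perm.sign_swap h, Fin.prod_univ_four]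
    fin_cases i <;> fin_cases j <;> simp at h ⊢

theorem conj_dg (a b : Fin 4 → Kˣ) (σ : Perm (Fin 4)) :
    (dg a * pm σ * dg b * (dg a * pm σ)⁻¹ : G4 K) = dg fun i => b (σ⁻¹ i) := by
  rw [mul_inv_rev, ← mul_assoc, mul_assoc (dg a), mul_assoc (dg a), pm_dg_conj, ← map_mul, mul_comm, map_mul, mul_inv_cancel_right]

theorem single_perm (σ : Perm (Fin 4)) (i k : Fin 4) (c : Kˣ) :
    (Pi.mulSingle i c : Fin 4 → Kˣ) (σ⁻¹ k) = (Pi.mulSingle (σ i) c : Fin 4 → Kˣ) k := by
  simp only [Pi.mulSingle_apply, Perm.inv_eq_iff_eq]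

theorem conj_rr {x : G4 K} (hx : x ∈ NN (Fin 4) K) (i : Fin 4) :
    x * rr i * x⁻¹ = rr (pp x i) := by
  obtain ⟨a, σ, rfl⟩ := hx
  rw [pp_mon, rr, conj_dg]
  exact congrArg dg (funext fun k => single_perm σ i k _)

theorem dg_sw' (b : Fin 4 → Kˣ) (i j : Fin 4) (a : Kˣ) :
    (dg b * sw i j a * (dg b)⁻¹ : G4 K) = sw i j (b i * a * (b j)⁻¹) := by
  rw [sw, sw, ← map_inv, mul_assoc, mul_assoc, pm_dg, ← mul_assoc, ← mul_assoc, ← map_mul, ← map_mul]
  refine congrArg (dg · * _) (funext fun k => ?_)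
  by_cases h : i = j
  · subst h
    by_cases c : k = i <;> simp [c]
  by_cases a : k = i
  · simp [a, h]
  by_cases b : k = j
  · simp [b, Ne.symm h, mul_assoc]
  simp [swap_apply_of_ne_of_ne a b, a, b]

theorem conj_sw {x : G4 K} (hx : x ∈ NN (Fin 4) K) (i j : Fin 4) (a : Kˣ) :
    ∃ b, x * sw i j a * x⁻¹ = sw (pp x i) (pp x j) b := by
  obtain ⟨c, σ, rfl⟩ := hx
  have e : (pm σ * sw i j a * (pm σ)⁻¹ : G4 K) = sw (σ i) (σ j) a := by
    rw [sw, sw, ← conj_mul, pm_dg_conj, ← map_inv, ← map_mul, ← map_mul, swap_apply_apply]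
    exact congrArg (dg · * _) (funext fun k => by rw [Pi.mul_apply, Pi.mul_apply, single_perm, single_perm])
  exact ⟨_, by rw [pp_mon, ← dg_sw' c, ← e]; group⟩

theorem dg_sw (b : Fin 4 → Kˣ) {i j : Fin 4} (h : i ≠ j) (a : Kˣ) :
    (dg b * sw i j a * (dg b)⁻¹ : G4 K) = sw i j (b i * a * (b j)⁻¹) := dg_sw' b i j a

theorem sw_comm (i j : Fin 4) (a : Kˣ) : (sw i j a : G4 K) = sw j i a⁻¹ := by
  rw [sw, sw, inv_inv, swap_comm]
  exact congrArg (dg · * _) (mul_comm _ _)

/-- `k (dg a) = (dg b) k`: in row `i` of `k` only the column `j` with `a j = b i` is non-zero. -/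
theorem mem_NN_of_conj {a b : Fin 4 → Kˣ} (ha : Function.Injective a) {k : G4 K}
    (h : k * dg a * k⁻¹ = dg b) : k ∈ NN (Fin 4) K := by
  have e (i j) (n : k.1 i j ≠ 0) : a j = b i := by
    have := congrArg (fun g : G4 K => g.1 i j) (mul_inv_eq_iff_eq_mul.1 h)
    simp only [Units.val_mul, dg_val, Matrix.mul_diagonal, Matrix.diagonal_mul] at this
    exact Units.ext (mul_left_cancel₀ n (this.trans (mul_comm _ _)))
  have row (i) : ∃ j, k.1 i j ≠ 0 := by
    by_contra! n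
    simpa [Matrix.mul_apply, n] using congrFun (congrFun k.mul_inv i) i
  have col (j) : ∃ i, k.1 i j ≠ 0 := by
    by_contra! n
    simpa [Matrix.mul_apply, n] using congrFun (congrFun k.inv_mul j) j
  choose f hf using row
  have u (i j) (n : k.1 i j ≠ 0) : f i = j := ha ((e i _ (hf i)).trans (e i j n).symm)
  have bf : Function.Bijective f := Function.Surjective.bijective_of_finite fun j => let ⟨i, n⟩ := col j; ⟨i, u i j n⟩
  refine ⟨fun i => Units.mk0 _ (hf i), (Equiv.ofBijective f bf).symm, Units.ext (Matrix.ext fun i j => ?_)⟩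
  rw [mon_apply]
  split_ifs with c
  · rw [Equiv.eq_symm_apply] at c
    exact c ▸ rfl
  · exact by_contra fun n => c ((Equiv.eq_symm_apply _).2 (u i j n))

/-- The fourth power lies in the diagonal group of exponent four. -/
theorem gam_two : Two (Gam K D8) := fun g hg => by
  obtain ⟨b, τ, hb, -, e⟩ := pow_mem hg 4
  obtain ⟨a, σ, -, hσ, rfl⟩ := hg
  have k : ∀ σ : Perm (Fin 4), σ * (swap 0 1 * swap 2 3) = swap 0 1 * swap 2 3 * σ → σ ^ 4 = 1 := by decide +kernel
  have t : τ = 1 := by rw [← pp_mon b τ, ← e, pp_pow (mon_mem a σ), pp_mon, k σ hσ]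
  refine ⟨4, ?_⟩
  rw [show 2 ^ 4 = 4 * 4 from rfl, pow_mul, e, t, map_one, mul_one, ← map_pow, show b ^ 4 = 1 from funext hb, map_one]
  exact one_mem _

theorem pp_four {U : Subgroup (G4 K)} (t : Two U) (m : U ≤ NN (Fin 4) K) {x : G4 K} (hx : x ∈ U) :
    pp x ^ 4 = 1 := by
  obtain ⟨n, hn⟩ := t x hx
  have e := pp_scal hn
  rw [pp_pow (m hx)] at e
  have k : ∀ σ : Perm (Fin 4), σ ^ (4 * 3) = 1 := by decide +kernel
  exact orderOf_dvd_iff_pow_eq_one.1 (Nat.Coprime.dvd_of_dvd_mul_right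
    (((by norm_num : Nat.Coprime 2 3).pow_left n).coprime_dvd_left (orderOf_dvd_of_pow_eq_one e)) (orderOf_dvd_of_pow_eq_one (k _)))

/-- `σ`, `σ (0 1)` and `σ (2 3)` have order dividing four (`decide`). -/
theorem pp_D8 {U : Subgroup (G4 K)} (t : Two U) (m : U ≤ NN (Fin 4) K)
    (h1 : pm (swap 0 1) ∈ U) (h2 : pm (swap 2 3) ∈ U) {x : G4 K} (hx : x ∈ U) : pp x ∈ D8 := by
  have k : ∀ σ : Perm (Fin 4), σ ^ 4 = 1 → (σ * swap 0 1) ^ 4 = 1 → (σ * swap 2 3) ^ 4 = 1 →
    σ * (swap 0 1 * swap 2 3) = swap 0 1 * swap 2 3 * σ := by decide +kernel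
  have a := pp_four t m (mul_mem hx h1)
  have b := pp_four t m (mul_mem hx h2)
  rw [pp_mul (m hx) (pm_mem _), pp_pm] at a b
  exact k _ (pp_four t m hx) a b

variable [NeZero (2 : K)]

/-- `x = dg a * pm σ`, `σ² = 1`, `a i = ±1` at fixed points.  `σ = 1`: an odd number of signs, not
three as `-2 ≠ 2`.  A transposition `(i j)`: `a i * a j = 1` and both fixed entries are `1`.  A double
transposition has trace `0`. -/
theorem Rf.mon {x : G4 K} (h : Rf x) (hx : x ∈ NN (Fin 4) K) :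
    (∃ i, x = rr i) ∨ ∃ i j a, i ≠ j ∧ x = sw i j a := by
  obtain ⟨a, σ, rfl⟩ := hx
  obtain ⟨sq, tr, det⟩ := h
  rw [mon_mul] at sq
  obtain ⟨s1, s2⟩ := mon_inj (b := 1) (τ := 1) (sq.trans (by simp))
  rw [mon_trace] at tr
  rw [mon_det] at det
  have h2 : (2 : K) ≠ 0 := two_ne_zero
  have h4 : (2 * 2 : K) ≠ 0 := mul_ne_zero h2 h2
  have pm1 (i) (e : σ⁻¹ i = i) : (a i : K) = 1 ∨ (a i : K) = -1 := by
    have := congrArg Units.val (congrFun s1 i)
    rw [Pi.mul_apply, e] at this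
    exact mul_self_eq_one_iff.1 this
  have k : ∀ σ : Perm (Fin 4), σ * σ = 1 → σ = 1 ∨ (∃ i j, i ≠ j ∧ σ = swap i j) ∨ ∀ i, i ≠ σ i := by decide +kernel
  rcases k σ s2 with rfl | ⟨i, j, n, rfl⟩ | n
  · simp only [Perm.one_apply, if_true, Fin.sum_univ_four, Fin.prod_univ_four, map_one, Units.val_one, Int.cast_one, mul_one] at tr det ⊢
    have g (i) (e : ∀ k, (a k : K) = if k = i then -1 else 1) : (∃ i, dg a = (rr i : G4 K)) ∨ ∃ i j b, i ≠ j ∧ dg a = (sw i j b : G4 K) :=
      .inl ⟨i, congrArg dg (funext fun k => Units.ext (by rw [e, Pi.mulSingle_apply]; split_ifs <;> rfl))⟩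
    rcases pm1 0 rfl with a0 | a0 <;> rcases pm1 1 rfl with a1 | a1 <;> rcases pm1 2 rfl with a2 | a2 <;> rcases pm1 3 rfl with a3 | a3 <;>
      rw [a0, a1, a2, a3] at tr det <;> first
      | exact (h2 (by linear_combination det)).elim
      | exact (h4 (by linear_combination -tr)).elim
      | (refine g 0 fun k => ?_; fin_cases k <;> assumption)
      | (refine g 1 fun k => ?_; fin_cases k <;> assumption)
      | (refine g 2 fun k => ?_; fin_cases k <;> assumption)
      | (refine g 3 fun k => ?_; fin_cases k <;> assumption)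
  · refine .inr ⟨i, j, a i, n, congrArg (dg · * _) (funext fun k => ?_)⟩
    by_cases c : k = i
    · simp [c, n]
    by_cases d : k = j
    · have := congrFun s1 j
      simp only [Pi.mul_apply, swap_inv, swap_apply_right, Pi.one_apply] at this
      simpa [d, n.symm] using eq_inv_of_mul_eq_one_left this
    obtain ⟨l, n', l1, e⟩ := (by decide : ∀ i j k : Fin 4, i ≠ j → k ≠ i → k ≠ j → ∃ l, k ≠ l ∧ swap i j l = l ∧
      ∀ m, m ≠ k ∧ m ≠ l → m ≠ swap i j m) i j k n c d
    have k1 := swap_apply_of_ne_of_ne c d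
    rw [Fintype.sum_eq_add k l n' fun m hm => if_neg (e m hm), if_pos k1.symm, if_pos l1.symm] at tr
    simp only [Pi.mul_apply, Pi.mulSingle_eq_of_ne c, Pi.mulSingle_eq_of_ne d, mul_one]
    refine Units.ext ((pm1 k k1).resolve_right fun a0 => ?_)
    rcases pm1 l l1 with a1 | a1 <;> rw [a0, a1] at tr
    exacts [h2 (by linear_combination -tr), h4 (by linear_combination -tr)]
  · rw [Finset.sum_eq_zero fun i _ => if_neg (n i)] at tr
    exact (h2 tr.symm).elim

/-- Compare traces. -/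
theorem eq_of_cm {c z : G4 K} (hz : z.1.trace ≠ 0) (h : Cm c z) : c * z * c⁻¹ = z := by
  obtain ⟨t, e⟩ := mem_scal.1 h
  rw [mul_inv_eq_iff_eq_mul] at e
  have k : (c * z * c⁻¹).1.trace = z.1.trace := Matrix.trace_units_conj c z.1
  rw [e, Units.val_mul, sc_val, Matrix.smul_mul, one_mul, Matrix.trace_smul, smul_eq_mul, mul_eq_right₀ hz] at k
  rw [e, (Units.ext k : t = 1), map_one, one_mul]

theorem rr_not_scal (i : Fin 4) : (rr i : G4 K) ∉ scalars (Fin 4) K := fun h => by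
  obtain ⟨c, e⟩ := mem_scal.1 h
  obtain ⟨j, n⟩ := exists_ne i
  have k := dg_inj e
  have := congrArg Units.val ((congrFun k i).trans (congrFun k j).symm)
  rw [Pi.mulSingle_eq_same, Pi.mulSingle_eq_of_ne n, Units.val_neg, Units.val_one] at this
  exact two_ne_zero (by linear_combination -this : (2 : K) = 0)

theorem rr2_trace {i j : Fin 4} (h : i ≠ j) : (rr i * rr j : G4 K).1.trace = 0 := by
  rw [rr, rr, ← map_mul, dg_val, Matrix.trace_diagonal, Fin.sum_univ_four]
  fin_cases i <;> fin_cases j <;> simp at h ⊢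

theorem rr2_not_scal {i j : Fin 4} (h : i ≠ j) : (rr i * rr j : G4 K) ∉ scalars (Fin 4) K := fun k => by
  obtain ⟨c, e⟩ := mem_scal.1 k
  have := rr2_trace (K := K) h
  rw [e, sc_val, Matrix.trace_smul, Matrix.trace_one, smul_eq_mul, Fintype.card_fin] at this
  exact mul_ne_zero c.ne_zero (mul_ne_zero two_ne_zero two_ne_zero) (by linear_combination this : (c : K) * (2 * 2) = 0)

end Cfsg.Lib.Q4R
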