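import Cfsg.Agent.Lib.Q4R.Def

/-!
# Finite 2-subgroups of `PGL_n(K)`, `K` algebraically closed of odd characteristic, are monomial
-/

set_option autoImplicit false

namespace Cfsg.Lib.Q4R

open scoped MatrixGroups Matrix
open Cfsg.Geo

variable {K : Type*} [Field K] {ι : Type} [Fintype ι] [DecidableEq ι]

theorem mv (g h : GL ι K) (v : ι → K) : (g * h).1 *ᵥ v = g.1 *ᵥ h.1 *ᵥ v := by
  rw [Units.val_mul, Matrix.mulVec_mulVec]

theorem mv_inv (g : GL ι K) (v : ι → K) : (g⁻¹).1 *ᵥ g.1 *ᵥ v = v := by rw [← mv, inv_mul_cancel]; simp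

theorem mv_inv' (g : GL ι K) (v : ι → K) : g.1 *ᵥ (g⁻¹).1 *ᵥ v = v := by rw [← mv, mul_inv_cancel]; simp

/-- the elements acting on `W` as scalars -/
def Zs (W : Submodule K (ι → K)) : Subgroup (GL ι K) where
  carrier := {g | ∃ c : Kˣ, ∀ w ∈ W, g.1 *ᵥ w = (c : K) • w}
  one_mem' := ⟨1, by simp⟩
  mul_mem' := by
    rintro a b ⟨c, h⟩ ⟨d, k⟩
    exact ⟨d * c, fun w m => by rw [mv, k w m, Matrix.mulVec_smul, h w m, smul_smul, Units.val_mul]⟩
  inv_mem' := by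
    rintro a ⟨c, h⟩
    refine ⟨c⁻¹, fun w m => ?_⟩
    have := mv_inv a w
    rw [h w m, Matrix.mulVec_smul] at this
    rw [← this, smul_smul, Units.inv_mul, one_smul, this]

theorem scal_le_Zs (W : Submodule K (ι → K)) : scalars ι K ≤ Zs W := fun g h => by
  obtain ⟨c, rfl⟩ := mem_scal.1 h
  exact ⟨c, fun w _ => by rw [sc_val, Matrix.smul_mulVec, Matrix.one_mulVec]⟩

theorem finite_Sq_le {U V : Subgroup (GL ι K)} (f : Finite (Sq V)) (h : U ≤ V) : Finite (Sq U) :=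
  Nat.finite_of_card_ne_zero fun e => (Nat.card_pos (α := Sq V)).ne' (Subgroup.relIndex_eq_zero_of_le_right h e)

/-- a central involution of `U` modulo the elements acting on `W` as scalars -/
theorem exists_cen {W : Submodule K (ι → K)} {U : Subgroup (GL ι K)} (f : Finite (Sq U)) (t : Two U)
    (hW : ∀ u ∈ U, ∀ w ∈ W, u.1 *ᵥ w ∈ W) (n : ¬ U ≤ Zs W) :
    ∃ z ∈ U, z ∉ Zs W ∧ z * z ∈ Zs W ∧ ∀ u ∈ U, z * u * (u * z)⁻¹ ∈ Zs W := by
  haveI N : ((Zs W).subgroupOf U).Normal := ⟨by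
    rintro a ⟨c, h⟩ g
    refine ⟨c, fun w m => ?_⟩
    change ((g : GL ι K) * a * (g : GL ι K)⁻¹).1 *ᵥ w = _
    replace h : ∀ w ∈ W, (a : GL ι K).1 *ᵥ w = _ := h
    rw [mv, mv, h _ (hW _ (inv_mem g.2) w m), Matrix.mulVec_smul, mv_inv']⟩
  haveI : ((scalars ι K).subgroupOf U).FiniteIndex := Subgroup.finiteIndex_of_finite_quotient
  haveI : ((Zs W).subgroupOf U).FiniteIndex :=
    Subgroup.finiteIndex_of_le (Subgroup.subgroupOf_mono U (scal_le_Zs W))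
  have p : IsPGroup 2 (U ⧸ (Zs W).subgroupOf U) := fun q => by
    obtain ⟨u, rfl⟩ := QuotientGroup.mk_surjective q
    obtain ⟨k, hk⟩ := t u u.2
    exact ⟨k, by rw [← QuotientGroup.mk_pow, QuotientGroup.eq_one_iff]; exact scal_le_Zs W hk⟩
  haveI : Nontrivial (U ⧸ (Zs W).subgroupOf U) := QuotientGroup.nontrivial_iff.2 fun e => n (Subgroup.subgroupOf_eq_top.1 e)
  haveI := p.center_nontrivial
  obtain ⟨k, h0, hk⟩ := (p.to_subgroup (Subgroup.center _)).nontrivial_iff_card.1 inferInstance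
  obtain ⟨⟨q, hq⟩, o⟩ := exists_prime_orderOf_dvd_card' 2 (hk ▸ dvd_pow_self 2 h0.ne')
  obtain ⟨z, rfl⟩ := QuotientGroup.mk_surjective q
  rw [Subgroup.orderOf_mk] at o
  refine ⟨z, z.2, fun h => ?_, ?_, fun u hu => ?_⟩
  · rw [(QuotientGroup.eq_one_iff z).2 h, orderOf_one] at o
    exact absurd o (by decide)
  · exact (QuotientGroup.eq_one_iff (N := (Zs W).subgroupOf U) (z * z)).1
      (by rw [QuotientGroup.mk_mul, ← sq, ← o, pow_orderOf_eq_one])
  · have := (QuotientGroup.eq_one_iff (N := (Zs W).subgroupOf U) (z * ⟨u, hu⟩ * (⟨u, hu⟩ * z)⁻¹)).1 (by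
      rw [QuotientGroup.mk_mul, QuotientGroup.mk_inv, QuotientGroup.mk_mul, QuotientGroup.mk_mul]
      exact mul_inv_eq_one.2 (Subgroup.mem_center_iff.1 hq _).symm)
    exact Subgroup.mem_subgroupOf.1 this

/-- an eigenspace inside `W` -/
def Eg (W : Submodule K (ι → K)) (z : GL ι K) (a : K) : Submodule K (ι → K) where
  carrier := {v | v ∈ W ∧ z.1 *ᵥ v = a • v}
  zero_mem' := ⟨zero_mem _, by simp⟩
  add_mem' h k := ⟨add_mem h.1 k.1, by rw [Matrix.mulVec_add, h.2, k.2, smul_add]⟩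
  smul_mem' c _ h := ⟨W.smul_mem c h.1, by rw [Matrix.mulVec_smul, h.2, smul_comm]⟩

/-- Induction on `finrank W` (for all `U`).  Let `Z ⊴ U` consist of the elements acting on `W` as
scalars (`Z ≥ U ⊓ scalars`).  If `Z = U` take any basis of `W`.  Otherwise the finite 2-group `U / Z`
has a central involution `z̄`; on `W`, `z² = c`, rescale `z' = z / √c`, `z'² = 1`, `z' ≠ ±1` on `W`,
`u z' u⁻¹ = ε(u) z'` on `W` with `ε(u) = ±1`.  `W = W₊ ⊕ W₋` (eigenspaces of `z'` inside `W`), both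
proper.  If `ε = 1` apply induction to `W₊`, `W₋` and take the union.  Otherwise `U₀ = {ε = 1}` is a
subgroup preserving `W₊`; with `x ∈ U \ U₀` and a set `s₀` for `(U₀, W₊)` take `s₀ ∪ x s₀`
(`x W₊ = W₋`; `u x = x (x⁻¹ u x)` for `u ∈ U₀`, `u = x (x⁻¹ u)` and `u x ∈ U₀` for `u ∉ U₀`). -/
theorem mono_aux [IsAlgClosed K] [NeZero (2 : K)] (W : Submodule K (ι → K))
    (U : Subgroup (GL ι K)) (f : Finite (Sq U)) (t : Two U)
    (hW : ∀ u ∈ U, ∀ w ∈ W, u.1 *ᵥ w ∈ W) :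
    ∃ s : Set (ι → K), LinearIndepOn K id s ∧ Submodule.span K s = W ∧
      ∀ u ∈ U, ∀ v ∈ s, ∃ w ∈ s, ∃ c : K, u.1 *ᵥ v = c • w := by
  induction hn : Module.finrank K W using Nat.strong_induction_on generalizing W U with | _ n ih => ?_
  by_cases h : U ≤ Zs W
  · obtain ⟨s, h1, h2, h3⟩ := exists_linearIndependent K (W : Set (ι → K))
    exact ⟨s, h3, h2.trans W.span_eq, fun u hu v hv => let ⟨c, k⟩ := h hu; ⟨v, hv, c, k v (h1 hv)⟩⟩
  obtain ⟨z, zU, z1, ⟨c, z2⟩, z3⟩ := exists_cen f t hW h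
  obtain ⟨r, hr⟩ := IsAlgClosed.exists_eq_mul_self (c : K)
  have r0 : r ≠ 0 := fun e => c.ne_zero (by rw [hr, e, mul_zero])
  have lt (a : K) (a0 : a ≠ 0) : Module.finrank K (Eg W z a) < n :=
    hn ▸ Submodule.finrank_lt_finrank_of_lt (lt_of_le_of_ne (fun _ k => k.1) fun e =>
      z1 ⟨Units.mk0 a a0, fun w m => (e.ge m).2⟩)
  have dj : Disjoint (Eg W z r) (Eg W z (-r)) := Submodule.disjoint_def.2 fun v a b =>
    smul_right_injective _ (mul_ne_zero two_ne_zero r0) (by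
      linear_combination (norm := module) b.2 - a.2)
  have sp : Eg W z r ⊔ Eg W z (-r) = W := le_antisymm (sup_le (fun _ k => k.1) fun _ k => k.1) fun w m => by
    have k := z2 w m
    rw [mv, hr] at k
    have : w = (2 * r)⁻¹ • (r • w + z.1 *ᵥ w) + (2 * r)⁻¹ • (r • w - z.1 *ᵥ w) := by
      rw [← smul_add, add_add_sub_cancel, ← two_smul K, smul_smul, smul_smul, mul_assoc,
        inv_mul_cancel₀ (mul_ne_zero two_ne_zero r0), one_smul]
    rw [this]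
    refine Submodule.add_mem_sup (Submodule.smul_mem _ _ ⟨add_mem (W.smul_mem r m) (hW z zU w m), ?_⟩)
      (Submodule.smul_mem _ _ ⟨sub_mem (W.smul_mem r m) (hW z zU w m), ?_⟩)
    · rw [Matrix.mulVec_add, Matrix.mulVec_smul, k]; module
    · rw [Matrix.mulVec_sub, Matrix.mulVec_smul, k]; module
  let U0 : Subgroup (GL ι K) :=
    { carrier := {u | u ∈ U ∧ ∀ w ∈ W, z.1 *ᵥ u.1 *ᵥ w = u.1 *ᵥ z.1 *ᵥ w}
      one_mem' := ⟨one_mem _, by simp⟩
      mul_mem' := fun {a b} ha hb => ⟨mul_mem ha.1 hb.1, fun w m => by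
        rw [mv, mv, ha.2 _ (hW b hb.1 w m), hb.2 w m]⟩
      inv_mem' := fun {a} ha => ⟨inv_mem ha.1, fun w m => by
        rw [← mv_inv a (z.1 *ᵥ a⁻¹.1 *ᵥ w), ← ha.2 _ (hW _ (inv_mem ha.1) w m), mv_inv']⟩ }
  have an (u) (hu : u ∈ U) (k : u ∉ U0) : ∀ w ∈ W, z.1 *ᵥ u.1 *ᵥ w = -(u.1 *ᵥ z.1 *ᵥ w) := by
    obtain ⟨e, he⟩ := z3 u hu
    replace he : ∀ w ∈ W, z.1 *ᵥ u.1 *ᵥ w = (e : K) • u.1 *ᵥ z.1 *ᵥ w := fun w m => by
      have := he _ (hW _ (mul_mem hu zU) w m)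
      rwa [mv, mv_inv, mv, mv] at this
    have e1 : (e : K) ≠ 1 := fun e1 => k ⟨hu, fun w m => by rw [he w m, e1, one_smul]⟩
    intro w m
    have a := z2 _ (hW u hu _ (hW z zU w m))
    rw [mv, he _ (hW z zU w m), Matrix.mulVec_smul, he _ (hW z zU _ (hW z zU w m)), ← mv z z, z2 _ (hW z zU w m),
      Matrix.mulVec_smul] at a
    rw [he w m]
    exact smul_right_injective _ (mul_ne_zero c.ne_zero (sub_ne_zero.2 e1)) (by linear_combination (norm := module) a)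
  have i0 (a : K) : ∀ u ∈ U0, ∀ w ∈ Eg W z a, u.1 *ᵥ w ∈ Eg W z a := fun u hu w m =>
    ⟨hW u hu.1 w m.1, by rw [hu.2 w m.1, m.2, Matrix.mulVec_smul]⟩
  have i1 (a : K) : ∀ u ∈ U, u ∉ U0 → ∀ w ∈ Eg W z a, u.1 *ᵥ w ∈ Eg W z (-a) := fun u hu k w m =>
    ⟨hW u hu w m.1, by rw [an u hu k w m.1, m.2, Matrix.mulVec_smul, neg_smul]⟩
  obtain ⟨s, a1, a2, a3⟩ := ih _ (lt r r0) _ U0 (finite_Sq_le f fun _ k => k.1) (t.mono fun _ k => k.1) (i0 r) rfl
  by_cases k : U ≤ U0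
  · obtain ⟨s', b1, b2, b3⟩ := ih _ (lt _ (neg_ne_zero.2 r0)) _ U f t (fun u hu => i0 _ u (k hu)) rfl
    refine ⟨s ∪ s', a1.id_union b1 (by rwa [a2, b2]), by rw [Submodule.span_union, a2, b2, sp], ?_⟩
    rintro u hu v (hv | hv)
    · obtain ⟨w, m, e⟩ := a3 u (k hu) v hv
      exact ⟨w, .inl m, e⟩
    · obtain ⟨w, m, e⟩ := b3 u hu v hv
      exact ⟨w, .inr m, e⟩
  obtain ⟨x, xU, x0⟩ := SetLike.not_le_iff_exists.1 k
  have b2 : Submodule.span K (x.1.mulVecLin '' s) = Eg W z (-r) := by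
    rw [Submodule.span_image, a2]
    refine le_antisymm ?_ fun w m => ⟨_, neg_neg r ▸ i1 _ _ (inv_mem xU) (mt inv_mem_iff.1 x0) w m, mv_inv' x w⟩
    rintro _ ⟨w, m, rfl⟩
    exact i1 r x xU x0 w m
  have g (u) (hu : u ∈ U) : ∀ v ∈ s, ∃ w ∈ s ∪ x.1.mulVecLin '' s, ∃ c : K, u.1 *ᵥ v = c • w := fun v hv => by
    by_cases k : u ∈ U0
    · obtain ⟨w, m, e⟩ := a3 u k v hv
      exact ⟨w, .inl m, e⟩
    · obtain ⟨w, m, d, e⟩ := a3 (x⁻¹ * u) ⟨mul_mem (inv_mem xU) hu, fun w m => by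
        rw [mv, mv, an _ (inv_mem xU) (mt inv_mem_iff.1 x0) _ (hW u hu w m), an u hu k w m, Matrix.mulVec_neg, neg_neg]⟩ v hv
      refine ⟨_, .inr ⟨w, m, rfl⟩, d, ?_⟩
      rw [Matrix.mulVecLin_apply, ← Matrix.mulVec_smul, ← e, mv, mv_inv']
  refine ⟨s ∪ x.1.mulVecLin '' s, a1.id_union ((a1.map_injOn x.1.mulVecLin fun a _ b _ e => ?_).id_image) (by rwa [a2, b2]),
    by rw [Submodule.span_union, a2, b2, sp], ?_⟩
  · rw [← mv_inv x a, ← mv_inv x b]
    exact congrArg _ e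
  · rintro u hu v (hv | ⟨v, hv, rfl⟩)
    · exact g u hu v hv
    · rw [Matrix.mulVecLin_apply, ← mv]
      exact g _ (mul_mem hu xU) v hv

/-- `mono_aux` for `W = ⊤`; index the basis `s` by `ι`, let `k⁻¹` have the basis vectors as columns.
Every column of `k u k⁻¹` has one non-zero entry, in row `σ j`; `σ` is injective as the matrix is
invertible. -/
theorem mono [IsAlgClosed K] [NeZero (2 : K)] {U : Subgroup (GL ι K)} (f : Finite (Sq U))
    (t : Two U) : ∃ k, cj k U ≤ NN ι K := by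
  obtain ⟨s, a1, a2, a3⟩ := mono_aux ⊤ U f t fun _ _ _ _ => trivial
  let b0 : Module.Basis s K (ι → K) := .mk a1 (by rw [← a2, ← Set.image_eq_range, Set.image_id])
  let e : s ≃ ι := b0.indexEquiv (Pi.basisFun K ι)
  let b := b0.reindex e
  have hb (j) : b j = e.symm j := by simp [b, b0]
  haveI := (Pi.basisFun K ι).invertibleToMatrix b
  let P : GL ι K := unitOfInvertible ((Pi.basisFun K ι).toMatrix b)
  have hP (i j) : P.1 i j = b j i := by simp [P, Module.Basis.toMatrix_apply]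
  refine ⟨P⁻¹, fun g hg => ?_⟩
  rw [mem_cj, inv_inv] at hg
  have : ∀ j, ∃ i, ∃ c : K, (P * g * P⁻¹).1 *ᵥ b j = c • b i := fun j => by
    obtain ⟨w, m, k⟩ := a3 _ hg _ (e.symm j).2
    exact ⟨e ⟨w, m⟩, by simpa only [hb, e.symm_apply_apply] using k⟩
  choose σ c h using this
  have c0 (j) : c j ≠ 0 := fun k => b.ne_zero j (by rw [← mv_inv (P * g * P⁻¹) (b j), h, k, zero_smul, Matrix.mulVec_zero])
  have inj : Function.Injective σ := fun i j k => by
    have : c j • b i = c i • b j := by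
      rw [← mv_inv (P * g * P⁻¹) (c j • b i), ← mv_inv (P * g * P⁻¹) (c i • b j), Matrix.mulVec_smul, Matrix.mulVec_smul _ (c i),
        h, h, k, smul_comm]
    by_contra n
    have := congrArg (b.repr · i) this
    simp [c0, Ne.symm n] at this
  let τ := Equiv.ofBijective σ (Finite.injective_iff_bijective.1 inj)
  refine ⟨fun i => Units.mk0 _ (c0 (τ⁻¹ i)), τ, mul_left_cancel (a := P) (Units.ext (Matrix.ext fun i j => ?_))⟩
  have := congrFun (h j) i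
  rw [show P * g = P * g * P⁻¹ * P by group, Units.val_mul, Units.val_mul P, Matrix.mul_apply, Matrix.mul_apply]
  simp only [hP, mon_apply, mul_ite, mul_zero, Finset.sum_ite_eq', Finset.mem_univ, if_true, Units.val_mk0,
    Equiv.Perm.inv_def, Equiv.symm_apply_apply]
  exact this.trans (mul_comm _ _)

end Cfsg.Lib.Q4R
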